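/-
Small simple groups: a self-centralizing subgroup of prime order `p ≥ 7` with normalizer of order
`2 p`, compared with a transitive permutation character.
-/
import Cfsg.Agent.Lib.Small.ExcPerm
import Cfsg.Agent.Lib.ExcP.Kill
import Cfsg.Agent.Lib.Small.Sieve
import Cfsg.Agent.Lib.SmallSimple.G168

set_option autoImplicit false
set_option linter.unusedSectionVars false
set_option linter.unusedVariables false

namespace Cfsg.Agent.Lib.Small.ExcTwo

open Cfsg Module MulAction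
open Cfsg.Agent.Lib.Char.Basic Cfsg.Agent.Lib.Char.Ortho Cfsg.Agent.Lib.Char.Complete
open Cfsg.Agent.Lib.Char.Degree
open Cfsg.Agent.Lib.ExcP.Gram Cfsg.Agent.Lib.ExcP.Dual Cfsg.Agent.Lib.ExcP.Core
open Cfsg.Agent.Lib.ExcP.Inst Cfsg.Agent.Lib.ExcP.Kill
open Cfsg.Agent.Lib.Small.ExcPerm Cfsg.Agent.Lib.Small.Basic Cfsg.Agent.Lib.Small.Sieve
open scoped ComplexConjugate

universe u v

/-- A sum of squares equal to one has a single non-zero term. -/
theorem exists_of_sum_sq_eq_one {ι : Type*} [DecidableEq ι] (s : Finset ι) (z : ι → ℤ)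
    (h : ∑ j ∈ s, z j ^ 2 = 1) :
    ∃ j ∈ s, (z j = 1 ∨ z j = -1) ∧ ∀ i ∈ s, i ≠ j → z i = 0 := by
  have hex : ∃ j ∈ s, z j ≠ 0 := by
    by_contra hcon
    push Not at hcon
    rw [Finset.sum_eq_zero (fun j hj => by rw [hcon j hj]; norm_num)] at h
    omega
  obtain ⟨j, hj, hj0⟩ := hex
  have h1 := Finset.add_sum_erase s (fun i => z i ^ 2) hj
  have h2 : 0 ≤ ∑ i ∈ s.erase j, z i ^ 2 := Finset.sum_nonneg fun i _ => sq_nonneg _
  have h3 : 1 ≤ z j ^ 2 := by
    have : 0 < z j ^ 2 := by positivity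
    omega
  have h4 : z j ^ 2 = 1 := by omega
  have h5 : ∑ i ∈ s.erase j, z i ^ 2 = 0 := by omega
  refine ⟨j, hj, ?_, fun i hi hij => ?_⟩
  · exact sq_eq_one_iff.mp h4
  · have h6 := (Finset.sum_eq_zero_iff_of_nonneg (fun i _ => sq_nonneg (z i))).mp h5 i
      (Finset.mem_erase.mpr ⟨hij, hi⟩)
    exact pow_eq_zero_iff (by norm_num) |>.mp h6

theorem aux_b {b : ℤ} (hb0 : b ≠ 0) (h : 3 * b ^ 2 + 2 * b ≤ 1) : b = -1 := by
  have h0 : b ≤ -1 ∨ 1 ≤ b := by omega
  rcases h0 with h1 | h1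
  · by_contra hne
    have h2 : b ≤ -2 := by omega
    nlinarith
  · nlinarith

theorem aux_b' {b : ℤ} (hb0 : b ≠ 0) (h : 3 * b ^ 2 - 2 * b ≤ 1) : b = 1 := by
  have h1 := aux_b (b := -b) (by omega) (by nlinarith)
  omega

section Main

variable {G : Type u} [Group G] [Finite G] [IsSimpleGroup G]

/-- The multiplicity of the principal character in a transitive permutation character. -/
theorem classInner_perm_one [Fintype G] {Ω : Type v} [MulAction G Ω] [Fintype Ω] [IsPretransitive G Ω]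
    [Nonempty Ω] :
    classInner (fun g : G => (Nat.card (fixedBy Ω g) : ℂ)) (fun _ => (1 : ℂ)) = 1 := by
  classical
  letI : Fintype (orbitRel.Quotient G Ω) := Fintype.ofFinite _
  have h4 := sum_card_fixedBy_eq_card_orbits_mul_card_group G Ω
  have hq : Fintype.card (Quotient (orbitRel G Ω)) = 1 := by
    obtain ⟨a⟩ : Nonempty Ω := inferInstance
    rw [Fintype.card_eq_one_iff]
    refine ⟨Quotient.mk (orbitRel G Ω) a, fun q => ?_⟩
    induction q using Quotient.inductionOn with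
    | h b =>
      apply Quotient.sound
      exact MulAction.orbitRel_apply.mpr (MulAction.exists_smul_eq G a b)
  have h5 : classInner (fun g : G => (Nat.card (fixedBy Ω g) : ℂ)) (fun _ => (1 : ℂ)) =
      (Nat.card G : ℂ)⁻¹ * ∑ g : G, (Nat.card (fixedBy Ω g) : ℂ) := by
    rw [classInner_def]
    simp
  rw [h5]
  have h6 : ∑ g : G, (Nat.card (fixedBy Ω g) : ℂ) = (Nat.card G : ℂ) := by
    have h7 : ((∑ g : G, Fintype.card (fixedBy Ω g) : ℕ) : ℂ) =
        ((Fintype.card (Quotient (orbitRel G Ω)) * Fintype.card G : ℕ) : ℂ) := by rw [h4]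
    rw [hq, one_mul] at h7
    push_cast at h7
    rw [Nat.card_eq_fintype_card]
    rw [← h7]
    refine Finset.sum_congr rfl fun g _ => ?_
    rw [Nat.card_eq_fintype_card]
  rw [h6]
  exact inv_mul_cancel₀ (by exact_mod_cast (Nat.card_pos (α := G)).ne')

theorem exc_two (hG : ¬ IsMulCommutative G) {p : ℕ} [hp : Fact p.Prime] (hp7 : 7 ≤ p)
    (Q : Sylow p G) (hQ : Nat.card (Q : Subgroup G) = p) (hp2 : ¬ p ^ 2 ∣ Nat.card G)
    (hNQ : Nat.card (Subgroup.normalizer ((Q : Subgroup G) : Set G)) = p * 2)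
    {Ω : Type v} [MulAction G Ω] [Finite Ω] [IsPretransitive G Ω] [Nonempty Ω] (f : ℕ)
    (hf : ∀ u : G, u ∈ (Q : Subgroup G) → u ≠ 1 → Nat.card (fixedBy Ω u) = f) :
    ∃ (t d D₀ : ℕ) (z ε : ℤ) (m' : ℕ) (mν : Fin t → ℕ),
      t * 2 = p - 1 ∧ (z = 1 ∨ z = -1) ∧ (ε = 1 ∨ ε = -1) ∧ 2 ≤ d ∧ d ∣ Nat.card G ∧
      D₀ ∣ Nat.card G ∧ 0 < D₀ ∧
      -1 + z * d + ε * D₀ = 0 ∧ (p : ℤ) ∣ d + z ∧ (p : ℤ) ∣ D₀ - 2 * ε ∧
      1 + m' * d + ∑ i, mν i * D₀ ≤ Nat.card Ω ∧
      (∀ i, -1 + z * m' + ε * mν i = -(f : ℤ)) := by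
  classical
  let _ : Fintype G := Fintype.ofFinite _
  have := finite_irrCharacter (G := G)
  let _ : Fintype (IrrCharacter G) := Fintype.ofFinite _
  let _ : Fintype Ω := Fintype.ofFinite _
  have hpd : p ∣ Nat.card G := by
    rw [← hQ]
    exact Subgroup.card_subgroup_dvd_card _
  have hBurn := normalizer_not_le_centralizer hG p hpd Q
  have hC : Cn (Q : Subgroup G) = (Q : Subgroup G) :=
    Cfsg.Agent.Lib.SmallSimple.G168.centralizer_eq_of_prime_index Nat.prime_two Q hQ hNQ hBurn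
  have hfin := finite_DD (p := p) (P := (Q : Subgroup G)) hQ hp2
  let _ : Fintype (DD (Q : Subgroup G) p) := Fintype.ofFinite _
  obtain ⟨ε, b, t, D₀, z, w, ν, c, hε, hte, hsq, hone, hdeg, hcong, hcongD, hD₀dvd, hD₀pos, hνinj,
    hcsurj, hνdeg, hzν, hwν, hw, hinner⟩ := exc_selfX (P := (Q : Subgroup G)) (p := p) hQ hp2 2
      (by rw [hNQ]; ring) hC (by omega)
  have ht3 : 3 ≤ t := by omega
  set s := Finset.univ.erase (oneIrr G) with hs
  have hdeg1 : charDegree ((oneIrr G : IrrCharacter G) : G → ℂ) = 1 :=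
    charDegree_eq_of_eq_natCast (n := 1) (by simp [oneIrr])
  have hsplit : ∀ F : IrrCharacter G → ℤ, ∑ j, F j = F (oneIrr G) + ∑ j ∈ s, F j := fun F =>
    (Finset.add_sum_erase Finset.univ F (Finset.mem_univ (oneIrr G))).symm
  have h1 := hsplit (fun j => z j ^ 2)
  simp only [hone] at h1
  rw [h1] at hsq
  set R : ℤ := ∑ j ∈ s, z j ^ 2 with hR
  have hR0 : 0 ≤ R := Finset.sum_nonneg fun j _ => sq_nonneg _
  have hRe : R = 1 - 2 * ε * b - (t : ℤ) * b ^ 2 := by
    push_cast at hsq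
    linarith
  have ht3' : (3 : ℤ) ≤ (t : ℤ) := by exact_mod_cast ht3
  have hbsq : 3 * b ^ 2 ≤ (t : ℤ) * b ^ 2 := mul_le_mul_of_nonneg_right ht3' (sq_nonneg b)
  have h2 := hsplit (fun j => z j * (charDegree (j : G → ℂ) : ℤ))
  simp only [hone, hdeg1] at h2
  rw [h2] at hdeg
  have hb : b = 0 := by
    by_contra hb0
    have hb1 : b = -ε := by
      rcases hε with rfl | rfl
      · simpa using aux_b hb0 (by linarith)
      · simpa using aux_b' hb0 (by linarith)
    have hεsq : ε ^ 2 = 1 := by rcases hε with rfl | rfl <;> norm_num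
    have hR1 : R = 3 - (t : ℤ) := by
      rw [hRe, hb1]
      have : 1 - 2 * ε * -ε - (t : ℤ) * (-ε) ^ 2 = 1 + 2 * ε ^ 2 - (t : ℤ) * ε ^ 2 := by ring
      rw [this, hεsq]
      ring
    have ht : (t : ℤ) = 3 := by omega
    have hR2 : R = 0 := by omega
    have hzero : ∀ j ∈ s, z j = 0 := by
      intro j hj
      have h3 := (Finset.sum_eq_zero_iff_of_nonneg (fun i _ => sq_nonneg (z i))).mp hR2 j hj
      exact pow_eq_zero_iff (by norm_num) |>.mp h3
    have hT : ∑ j ∈ s, z j * (charDegree (j : G → ℂ) : ℤ) = 0 :=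
      Finset.sum_eq_zero fun j hj => by rw [hzero j hj, zero_mul]
    rw [hT, ht, hb1] at hdeg
    push_cast at hdeg
    rcases hε with rfl | rfl <;> omega
  subst hb
  have hR1 : R = 1 := by
    rw [hRe]
    ring
  obtain ⟨j₁, hj₁, hz₁, hz₀⟩ := exists_of_sum_sq_eq_one s z hR1
  have hj₁ne : j₁ ≠ oneIrr G := (Finset.mem_erase.mp hj₁).1
  have hsplit2 : ∀ F : IrrCharacter G → ℤ, ∑ j, z j * F j = - F (oneIrr G) + z j₁ * F j₁ := by
    intro F
    rw [hsplit (fun j => z j * F j), hone, Finset.sum_eq_single_of_mem j₁ hj₁]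
    · ring
    · intro i hi hij
      rw [hz₀ i hi hij, zero_mul]
  have hT : ∑ j ∈ s, z j * (charDegree (j : G → ℂ) : ℤ) = z j₁ * (charDegree (j₁ : G → ℂ) : ℤ) := by
    rw [Finset.sum_eq_single_of_mem j₁ hj₁]
    intro i hi hij
    rw [hz₀ i hi hij, zero_mul]
  rw [hT] at hdeg
  -- the permutation character
  obtain ⟨m, hm, hsum, hexp⟩ := exists_perm_coeff (G := G) (Ω := Ω)
  have hwz : ∀ j, w j = z j := by
    intro j
    by_cases hj : j ∈ Set.range ν
    · obtain ⟨i, rfl⟩ := hj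
      rw [hwν, hzν]
    · exact hw j hj
  have hcl : IsClassFunction G (fun g : G => (Nat.card (fixedBy Ω g) : ℂ)) :=
    isClassFunction_of_isCharacter Cfsg.Agent.Lib.Char.Orbital.isCharacter_permChar
  let _ : Fintype (Q : Subgroup G) := Fintype.ofFinite _
  have hmone : m (oneIrr G) = 1 := by
    have h3 := hm (oneIrr G)
    have h4 : classInner (fun g : G => (Nat.card (fixedBy Ω g) : ℂ)) ((oneIrr G : IrrCharacter G) : G → ℂ) = 1 :=
      classInner_perm_one
    rw [h4] at h3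
    exact_mod_cast h3.symm
  have hkey : ∀ d : DD (Q : Subgroup G) p, - 1 + z j₁ * m j₁ + ε * m (ν (c d)) = -(f : ℤ) := by
    intro d
    have h3 := hexp (Th (Q : Subgroup G) d.1)
    rw [classInner_Th_const hQ hC d.2.2 hcl (f := (f : ℂ))
      (fun u hu hu1 => by
        show (Nat.card (fixedBy Ω u) : ℂ) = f
        rw [hf u hu hu1])] at h3
    simp only [hinner, hwz] at h3
    rw [Complex.conj_natCast] at h3
    have h4 : (-(f : ℤ) : ℤ) = ∑ j, (m j : ℤ) * (z j + ε * (if ν (c d) = j then 1 else 0)) := by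
      have h5 : ((-(f : ℤ) : ℤ) : ℂ) = ((∑ j, (m j : ℤ) * (z j + ε * (if ν (c d) = j then 1 else 0)) : ℤ) : ℂ) := by
        push_cast
        push_cast at h3
        exact h3
      exact_mod_cast h5
    have h6 : ∑ j, (m j : ℤ) * (z j + ε * (if ν (c d) = j then 1 else 0)) =
        ∑ j, z j * (m j : ℤ) + ∑ j, ε * ((if ν (c d) = j then (m j : ℤ) else 0)) := by
      rw [← Finset.sum_add_distrib]
      refine Finset.sum_congr rfl fun j _ => ?_
      split_ifs <;> ring
    rw [h6, hsplit2, hmone, ← Finset.mul_sum, Finset.sum_ite_eq] at h4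
    simp only [Finset.mem_univ, if_true] at h4
    push_cast at h4
    linarith
  -- the degrees
  have hle : 1 + m j₁ * charDegree (j₁ : G → ℂ) + ∑ i, m (ν i) * D₀ ≤ Nat.card Ω := by
    rw [← hsum]
    let A : Finset (IrrCharacter G) := insert (oneIrr G) (insert j₁ (Finset.univ.image ν))
    have hj₁ν : j₁ ∉ Finset.univ.image ν := by
      intro h
      obtain ⟨i, -, hi⟩ := Finset.mem_image.mp h
      have := hzν i
      rw [hi] at this
      rcases hz₁ with h' | h' <;> omega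
    have honeν : oneIrr G ∉ insert j₁ (Finset.univ.image ν) := by
      intro h
      rcases Finset.mem_insert.mp h with h | h
      · exact hj₁ne h.symm
      · obtain ⟨i, -, hi⟩ := Finset.mem_image.mp h
        have := hzν i
        rw [hi, hone] at this
        omega
    have h3 : ∑ j ∈ A, m j * charDegree (j : G → ℂ) =
        1 + m j₁ * charDegree (j₁ : G → ℂ) + ∑ i, m (ν i) * D₀ := by
      rw [Finset.sum_insert honeν, Finset.sum_insert hj₁ν,
        Finset.sum_image (fun a _ b _ h => hνinj h), hmone, hdeg1]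
      simp only [hνdeg]
      ring
    rw [← h3]
    exact Finset.sum_le_sum_of_subset (Finset.subset_univ _)
  refine ⟨t, charDegree (j₁ : G → ℂ), D₀, z j₁, ε, m j₁, fun i => m (ν i), hte, hz₁, hε,
    two_le_degree hG j₁ hj₁ne, charDegree_dvd_card j₁.2, hD₀dvd, hD₀pos, ?_, ?_, ?_, hle, ?_⟩
  · have h3 : ((t : ℤ) * 0 + ε) * (D₀ : ℤ) = ε * D₀ := by ring
    rw [h3] at hdeg
    push_cast at hdeg
    linarith
  · have h3 := hcong j₁ (by rcases hz₁ with h' | h' <;> omega)
    exact h3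
  · have h3 : (D₀ : ℤ) + 0 - ((2 : ℕ) : ℤ) * ε = (D₀ : ℤ) - 2 * ε := by
      push_cast
      ring
    rw [h3] at hcongD
    exact hcongD
  · intro i
    obtain ⟨d, rfl⟩ := hcsurj i
    exact hkey d

end Main

end Cfsg.Agent.Lib.Small.ExcTwo
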