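/-
The field with sixteen elements, concretely, with a coding in natural numbers.
-/
import Cfsg.Agent.Lib.Small.PSL2Check1

set_option autoImplicit false

namespace Cfsg.Agent.Lib.Small.F16

/-- The field with sixteen elements `ZMod 2 [y]`, `y⁴ = y + 1`. -/
@[ext] structure Fsixteen where
  a : ZMod 2
  b : ZMod 2
  c : ZMod 2
  d : ZMod 2
  deriving DecidableEq

namespace Fsixteen

/-- Equivalence with quadruples. -/
def equivProd : Fsixteen ≃ ZMod 2 × ZMod 2 × ZMod 2 × ZMod 2 where
  toFun x := (x.a, x.b, x.c, x.d)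
  invFun x := ⟨x.1, x.2.1, x.2.2.1, x.2.2.2⟩
  left_inv _ := rfl
  right_inv _ := rfl

instance : Fintype Fsixteen := Fintype.ofEquiv _ equivProd.symm

instance : Zero Fsixteen := ⟨⟨0, 0, 0, 0⟩⟩
instance : One Fsixteen := ⟨⟨1, 0, 0, 0⟩⟩
instance : Add Fsixteen := ⟨fun x y => ⟨x.a + y.a, x.b + y.b, x.c + y.c, x.d + y.d⟩⟩
instance : Neg Fsixteen := ⟨fun x => x⟩
instance : Mul Fsixteen := ⟨fun x y =>
  ⟨x.a * y.a + (x.b * y.d + x.c * y.c + x.d * y.b),
   (x.a * y.b + x.b * y.a) + (x.b * y.d + x.c * y.c + x.d * y.b) + (x.c * y.d + x.d * y.c),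
   (x.a * y.c + x.b * y.b + x.c * y.a) + (x.c * y.d + x.d * y.c) + x.d * y.d,
   (x.a * y.d + x.b * y.c + x.c * y.b + x.d * y.a) + x.d * y.d⟩⟩

theorem add_def (x y : Fsixteen) :
    x + y = ⟨x.a + y.a, x.b + y.b, x.c + y.c, x.d + y.d⟩ := rfl

theorem mul_def (x y : Fsixteen) : x * y =
    ⟨x.a * y.a + (x.b * y.d + x.c * y.c + x.d * y.b),
     (x.a * y.b + x.b * y.a) + (x.b * y.d + x.c * y.c + x.d * y.b) + (x.c * y.d + x.d * y.c),
     (x.a * y.c + x.b * y.b + x.c * y.a) + (x.c * y.d + x.d * y.c) + x.d * y.d,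
     (x.a * y.d + x.b * y.c + x.c * y.b + x.d * y.a) + x.d * y.d⟩ := rfl

theorem zero_def : (0 : Fsixteen) = ⟨0, 0, 0, 0⟩ := rfl

theorem one_def : (1 : Fsixteen) = ⟨1, 0, 0, 0⟩ := rfl

instance instCommRing : CommRing Fsixteen where
  add_assoc := by
    intro x y z
    simp only [add_def, add_assoc]
  zero_add := by
    intro x
    simp only [add_def, zero_def, zero_add]
  add_zero := by
    intro x
    simp only [add_def, zero_def, add_zero]
  add_comm := by
    intro x y
    simp only [add_def, add_comm]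
  neg_add_cancel := by decide +kernel
  mul_assoc := by
    intro x y z
    simp only [mul_def]
    ext <;> dsimp only <;> ring
  one_mul := by
    intro x
    simp only [mul_def, one_def]
    ext <;> dsimp only <;> ring
  mul_one := by
    intro x
    simp only [mul_def, one_def]
    ext <;> dsimp only <;> ring
  mul_comm := by
    intro x y
    simp only [mul_def]
    ext <;> dsimp only <;> ring
  left_distrib := by
    intro x y z
    simp only [mul_def, add_def]
    ext <;> dsimp only <;> ring
  right_distrib := by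
    intro x y z
    simp only [mul_def, add_def]
    ext <;> dsimp only <;> ring
  zero_mul := by
    intro x
    simp only [mul_def, zero_def]
    ext <;> dsimp only <;> ring
  mul_zero := by
    intro x
    simp only [mul_def, zero_def]
    ext <;> dsimp only <;> ring
  nsmul := nsmulRec
  zsmul := zsmulRec

/-- Inverse: `x⁻¹ = x ^ 14`. -/
instance : Inv Fsixteen := ⟨fun x => x ^ 14⟩

instance instField : Field Fsixteen where
  exists_pair_ne := ⟨0, 1, by decide +kernel⟩
  mul_inv_cancel := by decide +kernel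
  inv_zero := by decide +kernel
  nnqsmul := _
  qsmul := _

theorem card_eq : Fintype.card Fsixteen = 16 := by decide +kernel

/-- The coding. -/
def code (x : Fsixteen) : ℕ := x.a.val + 2 * x.b.val + 4 * x.c.val + 8 * x.d.val

/-- Addition on codes. -/
def addN (x y : ℕ) : ℕ := x ^^^ y
/-- Multiplication on codes. -/
def mulN (x y : ℕ) : ℕ :=
  let a := x % 2
  let b := x / 2 % 2
  let c := x / 4 % 2
  let d := x / 8 % 2
  let a' := y % 2
  let b' := y / 2 % 2
  let c' := y / 4 % 2
  let d' := y / 8 % 2
  (a * a' + (b * d' + c * c' + d * b')) % 2 +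
    2 * (((a * b' + b * a') + (b * d' + c * c' + d * b') + (c * d' + d * c')) % 2) +
    4 * (((a * c' + b * b' + c * a') + (c * d' + d * c') + d * d') % 2) +
    8 * (((a * d' + b * c' + c * b' + d * a') + d * d') % 2)
/-- Negation on codes. -/
def negN (x : ℕ) : ℕ := x

theorem isCode : PSL2Check.IsCode code addN mulN negN where
  inj := by decide +kernel
  add := by decide +kernel
  mul := by decide +kernel
  neg := by decide +kernel
  zero := by decide +kernel
  one := by decide +kernel

/-- The generator `y`. -/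
def y : Fsixteen := ⟨0, 1, 0, 0⟩

end Fsixteen

end Cfsg.Agent.Lib.Small.F16
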