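/-
Small simple groups: there is no simple group of order 1440.
-/
import Cfsg.Agent.Lib.Small.Ord1440a

set_option autoImplicit false
set_option linter.unusedSectionVars false
set_option linter.unusedVariables false

namespace Cfsg.Agent.Lib.Small.Ord1440b

open Cfsg.Agent.Lib.Small.Basic Cfsg.Agent.Lib.Small.Sieve Cfsg.Agent.Lib.Small.TI
  Cfsg.Agent.Lib.Small.TI2 Cfsg.Agent.Lib.Small.TI3 Cfsg.Agent.Lib.Small.Low1
  Cfsg.Agent.Lib.Small.Low3 Cfsg.Agent.Lib.Small.Low5 Cfsg.Agent.Lib.Small.Ord1440a

universe u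

variable {G : Type u} [Group G] [Finite G]

/-- Parity for the conjugation by an involution. -/
theorem parity_conj {a : G} (ha : orderOf a = 2) (P : G → Prop) (hP : ∀ x, P x → P (a * x * a⁻¹)) :
    Nat.card {x // P x} % 2 = Nat.card {x // P x ∧ a * x = x * a} % 2 := by
  classical
  haveI : Finite (ConjAct G) := inferInstanceAs (Finite G)
  have hw : orderOf (ConjAct.toConjAct a) = 2 := by
    rw [← ha]
    exact orderOf_injective ConjAct.toConjAct.toMonoidHom ConjAct.toConjAct.injective a
  have h1 := card_fix_modEq (G := ConjAct G) (Ω := G) hw P (by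
    intro x hx
    rw [ConjAct.smul_def, ConjAct.ofConjAct_toConjAct]
    exact hP x hx)
  have h2 : Nat.card {x // P x ∧ (ConjAct.toConjAct a) • x = x} =
      Nat.card {x // P x ∧ a * x = x * a} := by
    apply Nat.card_congr
    apply Equiv.subtypeEquivRight
    intro x
    rw [ConjAct.smul_def, ConjAct.ofConjAct_toConjAct, mul_inv_eq_iff_eq_mul]
  rw [h2] at h1
  exact h1

/-- The conjugates of an element of order two have order two. -/
theorem orderOf_of_isConj {t g : G} (h : IsConj t g) : orderOf g = orderOf t := by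
  obtain ⟨c, rfl⟩ := isConj_iff.mp h
  exact orderOf_injective (MulAut.conj c).toMonoidHom (MulAut.conj c).injective t

section main

variable [IsSimpleGroup G]

/-- No element of order three commutes with `t` when `t` commutes with an element of order five and
the Sylow normalizer for `2` has index `45`. -/
theorem no_three (hG : ¬ IsMulCommutative G) (h : Nat.card G = 1440) (A : Subgroup G)
    (hA : A.index = 45) {y t x : G} (hy : orderOf y = 5) (ht : orderOf t = 2) (hc : y * t = t * y)
    (hx : orderOf x = 3) (hcx : x * t = t * x) : False := by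
  have hAtop : A ≠ ⊤ := by
    rintro rfl
    simp at hA
  have hAc : Nat.card A = 32 := by
    have := A.card_mul_index
    rw [hA, h] at this
    omega
  obtain ⟨h1, -, -, h2, h3, -⟩ := Cfsg.Agent.Lib.Small.Ord720a.fix_numbers hG A hAtop hy ht hc
  obtain ⟨h1', -, -, -, -, -⟩ := Cfsg.Agent.Lib.Small.Ord720a.fix_numbers hG A hAtop hx ht hcx
  have h0 : Nat.card {z : G ⧸ A // t • z = z ∧ y • z = z} = 0 := by
    have : IsEmpty {z : G ⧸ A // t • z = z ∧ y • z = z} :=
      ⟨fun z => fix_coset_of_not_dvd hy (by rw [hAc]; norm_num) z.1 z.2.2⟩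
    exact Nat.card_of_isEmpty
  have h0' : Nat.card {z : G ⧸ A // t • z = z ∧ x • z = z} = 0 := by
    have : IsEmpty {z : G ⧸ A // t • z = z ∧ x • z = z} :=
      ⟨fun z => fix_coset_of_not_dvd hx (by rw [hAc]; norm_num) z.1 z.2.2⟩
    exact Nat.card_of_isEmpty
  rw [h0] at h1
  rw [h0'] at h1'
  rw [hA] at h2 h3
  omega

/-- The centralizer of `t` normalizes the subgroup of order five. -/
theorem centralizer_le (hG : ¬ IsMulCommutative G) (h : Nat.card G = 1440)
    (h9 : ∀ K : Subgroup G, K.index ≠ 9) (A : Subgroup G) (hA : A.index = 45)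
    {y t : G} {Q : Sylow 5 G} (hyQ : y ∈ (Q : Subgroup G)) (hy : orderOf y = 5) (ht : orderOf t = 2)
    (hc : y * t = t * y) :
    Subgroup.centralizer ({t} : Set G) ≤ Subgroup.normalizer ((Q : Subgroup G) : Set G) := by
  classical
  have hcard5 : ∀ U : Sylow 5 G, Nat.card U = 5 := by
    intro U
    simpa using card_sylow_eq (p := 5) (k := 1) (m := 288) (by rw [h]; norm_num) (by norm_num) U
  have hy1 : y ≠ 1 := by
    rintro rfl
    rw [orderOf_one] at hy
    omega
  set M := Subgroup.centralizer ({t} : Set G) with hM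
  have hQM : (Q : Subgroup G) ≤ M := by
    intro u hu
    have h1 : t ∈ Subgroup.centralizer ({y} : Set G) := by
      rw [Subgroup.mem_centralizer_iff]
      intro b hb
      rw [Set.mem_singleton_iff] at hb
      subst hb
      exact hc
    rw [centralizer_singleton_eq (hcard5 Q) hyQ hy1] at h1
    rw [hM, Subgroup.mem_centralizer_iff]
    intro b hb
    rw [Set.mem_singleton_iff] at hb
    subst hb
    exact ((Subgroup.mem_centralizer_iff.mp h1) u hu).symm
  have htM : t ∈ M := by
    rw [hM, Subgroup.mem_centralizer_iff]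
    intro b hb
    rw [Set.mem_singleton_iff] at hb
    subst hb
    rfl
  let Q' : Sylow 5 M := Q.subtype hQM
  have hQ'coe : (Q' : Subgroup M) = (Q : Subgroup G).subgroupOf M := Sylow.coe_subtype Q hQM
  have hn := card_normalizer_mul Q'
  set N' := Subgroup.normalizer ((Q' : Subgroup M) : Set M) with hN'
  have hy' : (⟨y, hQM hyQ⟩ : M) ∈ N' := by
    apply Subgroup.le_normalizer
    rw [hQ'coe]
    exact hyQ
  have ht' : (⟨t, htM⟩ : M) ∈ N' := by
    rw [hN', Subgroup.mem_normalizer_iff]
    intro x
    have h1 : (⟨t, htM⟩ : M) * x * (⟨t, htM⟩ : M)⁻¹ = x := by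
      apply Subtype.ext
      have h2 : t * (x : G) = x * t := (Subgroup.mem_centralizer_iff.mp x.2) t rfl
      show t * (x : G) * t⁻¹ = x
      rw [h2]
      group
    rw [h1]
  have h5 : 5 ∣ Nat.card N' := by
    have := orderOf_dvd_natCard (⟨_, hy'⟩ : N')
    rwa [Subgroup.orderOf_mk, Subgroup.orderOf_mk, hy] at this
  have h2 : 2 ∣ Nat.card N' := by
    have := orderOf_dvd_natCard (⟨_, ht'⟩ : N')
    rwa [Subgroup.orderOf_mk, Subgroup.orderOf_mk, ht] at this
  have h10 : 10 ∣ Nat.card N' := by
    have := Nat.Coprime.mul_dvd_of_dvd_of_dvd (by norm_num : Nat.Coprime 2 5) h2 h5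
    simpa using this
  obtain ⟨c, hc'⟩ := h10
  rw [hc'] at hn
  -- the order of `M`
  have hmi : Nat.card M * M.index = 1440 := by rw [M.card_mul_index, h]
  have h3 : ¬ 3 ∣ Nat.card M := by
    intro h3
    obtain ⟨x, hx⟩ := exists_prime_orderOf_dvd_card' (G := M) 3 h3
    have hxG : orderOf (x : G) = 3 := by rw [Subgroup.orderOf_coe, hx]
    exact no_three hG h A hA hy ht hc hxG ((Subgroup.mem_centralizer_iff.mp x.2) t rfl).symm
  have hd : Nat.card M ∣ 160 := by
    have h4 : Nat.card M ∣ 9 * 160 := ⟨M.index, by rw [hmi]⟩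
    have h5' : Nat.Coprime (Nat.card M) 9 := by
      have : Nat.Coprime (Nat.card M) (3 ^ 2) :=
        Nat.Coprime.pow_right 2 ((Nat.Prime.coprime_iff_not_dvd (by norm_num)).mpr h3).symm
      simpa using this
    exact h5'.dvd_of_dvd_mul_left h4
  have hne160 : Nat.card M ≠ 160 := by
    intro h6
    rw [h6] at hmi
    exact h9 M (by omega)
  have hn1 : Nat.card (Sylow 5 M) = 1 := by
    have hmod := card_sylow_modEq_one 5 M
    have hmod' : Nat.card (Sylow 5 M) % 5 = 1 := hmod
    have hle : Nat.card M ≤ 160 := Nat.le_of_dvd (by norm_num) hd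
    -- `10 * c * n = |M|` divides `80`
    have hd80 : Nat.card M ∣ 80 := by
      obtain ⟨e, he⟩ := hd
      have hlt : Nat.card M ≤ 80 := by
        have hepos : 2 ≤ e := by
          by_contra hcon
          have : e = 0 ∨ e = 1 := by omega
          rcases this with rfl | rfl <;> omega
        nlinarith
      have h6 : Nat.card M ∣ 160 := ⟨e, he⟩
      -- the divisors of 160 up to 80 divide 80
      have hpos : 0 < Nat.card M := Nat.card_pos
      have h10' : 10 ∣ Nat.card M := ⟨c * Nat.card (Sylow 5 M), by rw [← hn]; ring⟩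
      generalize Nat.card M = m at h6 hlt hpos h10'
      interval_cases m <;> revert h6 h10' <;> decide
    have hd8 : Nat.card (Sylow 5 M) ∣ 8 := by
      have h7 : 10 * (c * Nat.card (Sylow 5 M)) ∣ 10 * 8 := by
        have h8 : 10 * (c * Nat.card (Sylow 5 M)) = Nat.card M := by
          rw [← hn]
          ring
        rw [h8]
        exact hd80
      have h9' := Nat.dvd_of_mul_dvd_mul_left (by norm_num) h7
      exact Dvd.dvd.trans (Dvd.intro_left _ rfl) h9'
    have hle8 : Nat.card (Sylow 5 M) ≤ 8 := Nat.le_of_dvd (by norm_num) hd8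
    have hpos : 0 < Nat.card (Sylow 5 M) := Nat.card_pos
    generalize Nat.card (Sylow 5 M) = n at hd8 hle8 hpos hmod'
    interval_cases n <;> first | rfl | omega
  have hN'top : N' = ⊤ := by
    have h4 := card_normalizer_mul Q'
    rw [hn1, mul_one] at h4
    exact (Subgroup.card_eq_iff_eq_top N').mp h4
  intro g hg
  have hgN : (⟨g, hg⟩ : M) ∈ N' := by
    rw [hN'top]
    trivial
  rw [hN', Subgroup.mem_normalizer_iff] at hgN
  rw [Subgroup.mem_normalizer_iff]
  intro u
  constructor
  · intro hu
    have h6 : (⟨u, hQM hu⟩ : M) ∈ (Q' : Subgroup M) := by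
      rw [hQ'coe]
      exact hu
    have h7 := (hgN _).mp h6
    rw [hQ'coe] at h7
    exact h7
  · intro hu
    have huM : u ∈ M := by
      have h6 := M.mul_mem (M.mul_mem (M.inv_mem hg) (hQM hu)) hg
      have h7 : g⁻¹ * (g * u * g⁻¹) * g = u := by group
      rwa [h7] at h6
    have h6 : (⟨u, huM⟩ : M) ∈ (Q' : Subgroup M) := by
      rw [hgN]
      rw [hQ'coe]
      exact hu
    rw [hQ'coe] at h6
    exact h6

end main

end Cfsg.Agent.Lib.Small.Ord1440b
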