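/-
Small simple groups: there is no simple group of order 1440.
-/
import Cfsg.Agent.Lib.Small.Ord1440b

set_option autoImplicit false
set_option linter.unusedSectionVars false
set_option linter.unusedVariables false

namespace Cfsg.Agent.Lib.Small.Ord1440c

open Cfsg.Agent.Lib.Small.Basic Cfsg.Agent.Lib.Small.Sieve Cfsg.Agent.Lib.Small.TI
  Cfsg.Agent.Lib.Small.TI2 Cfsg.Agent.Lib.Small.TI3 Cfsg.Agent.Lib.Small.Low1
  Cfsg.Agent.Lib.Small.Low3 Cfsg.Agent.Lib.Small.Low5 Cfsg.Agent.Lib.Small.Ord1440a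
  Cfsg.Agent.Lib.Small.Ord1440b

universe u

variable {G : Type u} [Group G] [Finite G]

/-- An upper bound on the number of conjugates of `t` in `H`: an element of order ten in `H`. -/
theorem card_conj_le (H : Subgroup G) (hHc : Nat.card H = 40) {y t : G} (hyH : y ∈ H) (htH : t ∈ H)
    (hy : orderOf y = 5) (ht : orderOf t = 2) (hc : y * t = t * y) :
    Nat.card {g // IsConj t g ∧ g ∈ H} + 9 ≤ 40 := by
  classical
  have hcomm : Commute y t := hc
  have ho : orderOf (y * t) = 2 * 5 := by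
    rw [hcomm.orderOf_mul_eq_mul_orderOf_of_coprime (by rw [hy, ht]; norm_num), hy, ht]
  set Z := Subgroup.zpowers (y * t) with hZ
  have hZH : Z ≤ H := by
    rw [hZ, Subgroup.zpowers_le]
    exact H.mul_mem hyH htH
  have ht2 : t ^ 2 = 1 := by
    rw [← ht]
    exact pow_orderOf_eq_one t
  have hy5 : y ^ 5 = 1 := by
    rw [← hy]
    exact pow_orderOf_eq_one y
  have h5 : (y * t) ^ 5 = t := by
    rw [hcomm.mul_pow, hy5, one_mul]
    calc t ^ 5 = (t ^ 2) ^ 2 * t := by group
      _ = t := by rw [ht2]; simp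
  have htZ : t ∈ Z := by
    have h6 := Subgroup.pow_mem Z (Subgroup.mem_zpowers (y * t)) 5
    rwa [h5] at h6
  have key : ∀ g, IsConj t g → g ∈ Z → g = t := by
    intro g hg hgZ
    have hog := orderOf_of_isConj hg
    rw [ht] at hog
    have hg2 : g ^ 2 = 1 := by
      rw [← hog]
      exact pow_orderOf_eq_one g
    have h6 := mem_zpowers_pow (by norm_num : 0 < 2) ho hgZ hg2
    rw [h5] at h6
    obtain ⟨k, hk⟩ := Subgroup.mem_zpowers_iff.mp h6
    have hzp : t ^ (2 : ℤ) = 1 := by
      rw [zpow_two, ← pow_two, ht2]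
    rcases Int.even_or_odd' k with ⟨m, rfl | rfl⟩
    · exfalso
      rw [zpow_mul, hzp, one_zpow] at hk
      rw [← hk, orderOf_one] at hog
      omega
    · rw [zpow_add, zpow_mul, hzp, one_zpow, one_mul, zpow_one] at hk
      exact hk.symm
  have hcardZ : Nat.card {g // g ∈ Z} = 10 := by
    have : Nat.card Z = 10 := by rw [hZ, Nat.card_zpowers, ho]
    exact this
  have hB : Nat.card {g // g ∈ Z ∧ g ≠ t} = 9 := by
    have := card_subtype_ne (fun g => g ∈ Z) htZ
    omega
  let F : {g // IsConj t g ∧ g ∈ H} ⊕ {g // g ∈ Z ∧ g ≠ t} → H :=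
    Sum.elim (fun a => ⟨a.1, a.2.2⟩) (fun b => ⟨b.1, hZH b.2.1⟩)
  have hF : Function.Injective F := by
    rintro (a | a) (b | b) hab
    · congr 1
      exact Subtype.ext (congrArg (fun z : H => (z : G)) hab)
    · exfalso
      have h1 : a.1 = b.1 := congrArg (fun z : H => (z : G)) hab
      exact b.2.2 (h1 ▸ key a.1 a.2.1 (h1 ▸ b.2.1))
    · exfalso
      have h1 : a.1 = b.1 := congrArg (fun z : H => (z : G)) hab
      exact a.2.2 (h1.symm ▸ key b.1 b.2.1 (h1.symm ▸ a.2.1))
    · congr 1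
      exact Subtype.ext (congrArg (fun z : H => (z : G)) hab)
  have hle := Nat.card_le_card_of_injective F hF
  rw [Nat.card_sum, hB, hHc] at hle
  exact hle

variable [IsSimpleGroup G]

/-- The centralizer of `t` is the normalizer of the subgroup of order five. -/
theorem key_count (hG : ¬ IsMulCommutative G) (h : Nat.card G = 1440)
    (hn5 : Nat.card (Sylow 5 G) = 36) (h9 : ∀ K : Subgroup G, K.index ≠ 9) (A : Subgroup G)
    (hA : A.index = 45) {y t : G} {Q : Sylow 5 G} (hyQ : y ∈ (Q : Subgroup G)) (hy : orderOf y = 5)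
    (ht : orderOf t = 2) (hc : y * t = t * y) :
    Subgroup.centralizer ({t} : Set G) = Subgroup.normalizer ((Q : Subgroup G) : Set G) ∧
      Nat.card {g // IsConj t g ∧ g ∈ Subgroup.normalizer ((Q : Subgroup G) : Set G)} = 16 := by
  classical
  have hcard5 : ∀ U : Sylow 5 G, Nat.card U = 5 := by
    intro U
    simpa using card_sylow_eq (p := 5) (k := 1) (m := 288) (by rw [h]; norm_num) (by norm_num) U
  have hle := centralizer_le hG h h9 A hA hyQ hy ht hc
  set H := Subgroup.normalizer ((Q : Subgroup G) : Set G) with hH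
  have hHc : Nat.card H = 40 := by
    have : Nat.card H * Nat.card (Sylow 5 G) = Nat.card G := card_normalizer_mul Q
    rw [hn5, h] at this
    omega
  have hHi : H.index = 36 := by
    have := H.card_mul_index
    rw [hHc, h] at this
    omega
  have hHtop : H ≠ ⊤ := by
    rintro e
    rw [e] at hHi
    simp at hHi
  have htM : t ∈ Subgroup.centralizer ({t} : Set G) := by
    rw [Subgroup.mem_centralizer_iff]
    intro b hb
    rw [Set.mem_singleton_iff] at hb
    subst hb
    rfl
  have htH : t ∈ H := hle htM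
  have hyH : y ∈ H := Subgroup.le_normalizer hyQ
  -- the number of fixed points
  obtain ⟨h1, -, -, h2, h3, -⟩ := Cfsg.Agent.Lib.Small.Ord720a.fix_numbers hG H hHtop hy ht hc
  have hfix := (Cfsg.Agent.S1018.result 5 Q (hcard5 Q)).1 y hy
  have hv : Nat.card {x : G ⧸ H // t • x = x ∧ y • x = x} = 1 := by
    have hu := (Nat.card_eq_one_iff_unique.mp hfix).1
    rw [Nat.card_eq_one_iff_unique]
    refine ⟨⟨fun a b => Subtype.ext ?_⟩, ⟨⟨((1 : G) : G ⧸ H), ?_, ?_⟩⟩⟩
    · have h4 : (⟨a.1, a.2.2⟩ : MulAction.fixedBy (G ⧸ H) y) = ⟨b.1, b.2.2⟩ := hu.elim _ _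
      exact congrArg (fun z : MulAction.fixedBy (G ⧸ H) y => (z : G ⧸ H)) h4
    · rw [MulAction.Quotient.smul_coe, QuotientGroup.eq]
      simpa using htH
    · rw [MulAction.Quotient.smul_coe, QuotientGroup.eq]
      simpa using hyH
  rw [hv] at h1
  rw [hHi] at h2 h3
  have hf16 : Nat.card {x : G ⧸ H // t • x = x} = 16 := by omega
  have hS := Cfsg.Agent.S1019.result H t htH
  have hf16' : Nat.card (MulAction.fixedBy (G ⧸ H) t) = 16 := hf16
  rw [hf16', hHi] at hS
  have hcl := card_class_mul_centralizer t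
  rw [h] at hcl
  have hmd : Nat.card (Subgroup.centralizer ({t} : Set G)) ∣ 40 := by
    rw [← hHc]
    exact Subgroup.card_dvd_of_le hle
  have h10 : 10 ∣ Nat.card (Subgroup.centralizer ({t} : Set G)) := by
    have hcomm : Commute y t := hc
    have ho : orderOf (y * t) = 10 := by
      rw [hcomm.orderOf_mul_eq_mul_orderOf_of_coprime (by rw [hy, ht]; norm_num), hy, ht]
    have hmem : y * t ∈ Subgroup.centralizer ({t} : Set G) := by
      refine Subgroup.mul_mem _ ?_ htM
      rw [Subgroup.mem_centralizer_iff]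
      intro b hb
      rw [Set.mem_singleton_iff] at hb
      subst hb
      exact hc.symm
    have := orderOf_dvd_natCard (⟨_, hmem⟩ : Subgroup.centralizer ({t} : Set G))
    rwa [Subgroup.orderOf_mk, ho] at this
  have hbound := card_conj_le H hHc hyH htH hy ht hc
  set m := Nat.card (Subgroup.centralizer ({t} : Set G)) with hm
  set X := Nat.card {g // IsConj t g ∧ g ∈ H} with hX
  set T := Nat.card {g // IsConj t g} with hT
  have hmle : m ≤ 40 := Nat.le_of_dvd (by norm_num) hmd
  obtain ⟨k, hk⟩ := h10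
  have hcases : m = 10 ∨ m = 20 ∨ m = 40 := by
    have hk4 : k ≤ 4 := by omega
    have hk0 : k ≠ 0 := by
      rintro rfl
      rw [hk] at hcl
      simp at hcl
    interval_cases k
    · exact absurd rfl hk0
    · left; omega
    · right; left; omega
    · exfalso
      rw [hk] at hmd
      revert hmd
      decide
    · right; right; omega
  rcases hcases with h10' | h20 | h40
  · rw [h10'] at hcl
    omega
  · rw [h20] at hcl
    omega
  · rw [h40] at hcl
    refine ⟨Subgroup.eq_of_le_of_card_ge hle (by rw [hHc, ← hm, h40]), ?_⟩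
    omega

section final

variable (hG : ¬ IsMulCommutative G) (h : Nat.card G = 1440) {t : G} {Q : Sylow 5 G}
  (hCN : Subgroup.centralizer ({t} : Set G) = Subgroup.normalizer ((Q : Subgroup G) : Set G))
  (htQ : ∀ u ∈ (Q : Subgroup G), t * u = u * t) (ht : orderOf t = 2)

include hG h hCN htQ ht

/-- The conjugates of `t`: their centralizers are normalizers. -/
theorem exists_W {x : G} (hx : IsConj t x) : ∃ (g : G) (W : Sylow 5 G), x = g * t * g⁻¹ ∧ W = g • Q ∧
    (∀ m : G, x * m = m * x → m • W = W) ∧ (∀ u ∈ (W : Subgroup G), x * u = u * x) := by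
  obtain ⟨c, rfl⟩ := isConj_iff.mp hx
  have hmem : ∀ z : G, z ∈ ((c • Q : Sylow 5 G) : Subgroup G) ↔ c⁻¹ * z * c ∈ (Q : Subgroup G) := by
    intro z
    rw [Sylow.coe_subgroup_smul, Subgroup.mem_pointwise_smul_iff_inv_smul_mem]
    have h0 : (MulAut.conj c)⁻¹ • z = c⁻¹ * z * c := by
      simp [MulAut.smul_def]
    rw [h0]
  refine ⟨c, c • Q, rfl, rfl, ?_, ?_⟩
  · intro m hm
    have h1 : c⁻¹ * m * c ∈ Subgroup.centralizer ({t} : Set G) := by
      rw [Subgroup.mem_centralizer_iff]
      intro b hb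
      rw [Set.mem_singleton_iff] at hb
      subst hb
      have h2 : c * b * c⁻¹ * m = m * (c * b * c⁻¹) := hm
      calc b * (c⁻¹ * m * c) = c⁻¹ * (c * b * c⁻¹ * m) * c := by group
        _ = c⁻¹ * (m * (c * b * c⁻¹)) * c := by rw [h2]
        _ = c⁻¹ * m * c * b := by group
    rw [hCN] at h1
    have h3 : (c⁻¹ * m * c) • Q = Q := Sylow.smul_eq_iff_mem_normalizer.mpr h1
    have h4 : m • (c • Q) = c • ((c⁻¹ * m * c) • Q) := by
      rw [← mul_smul, ← mul_smul]
      congr 1
      group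
    rw [h4, h3]
  · intro u hu
    have h1 := htQ _ ((hmem u).mp hu)
    calc c * t * c⁻¹ * u = c * (t * (c⁻¹ * u * c)) * c⁻¹ := by group
      _ = c * ((c⁻¹ * u * c) * t) * c⁻¹ := by rw [h1]
      _ = u * (c * t * c⁻¹) := by group

/-- At most one conjugate of `t` centralizes a given Sylow `5`-subgroup. -/
theorem unique_conj {x₁ x₂ : G} (h₁ : IsConj t x₁) (h₂ : IsConj t x₂) (W : Sylow 5 G)
    (hx₁ : ∀ u ∈ (W : Subgroup G), x₁ * u = u * x₁) (hx₂ : ∀ u ∈ (W : Subgroup G), x₂ * u = u * x₂) :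
    x₁ = x₂ := by
  have hcard5 : ∀ U : Sylow 5 G, Nat.card U = 5 := by
    intro U
    simpa using card_sylow_eq (p := 5) (k := 1) (m := 288) (by rw [h]; norm_num) (by norm_num) U
  have hTI := isTI_of_card_prime hcard5
  have step : ∀ x, IsConj t x → (∀ u ∈ (W : Subgroup G), x * u = u * x) → ∀ (g : G) (W' : Sylow 5 G),
      x = g * t * g⁻¹ → W' = g • Q → (∀ m : G, x * m = m * x → m • W' = W') → W = W' := by
    intro x hx hxW g W' hxg hW' hW'fix
    by_contra hne
    have hall : ∀ u ∈ (W : Subgroup G), u = 1 := by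
      intro u hu
      exact eq_one_of_smul_eq hTI (Ne.symm hne) hu (hW'fix u (hxW u hu))
    have hpos : 1 < Nat.card W := by rw [hcard5 W]; norm_num
    have hnt := Finite.one_lt_card_iff_nontrivial.mp hpos
    obtain ⟨⟨u, hu⟩, hu1⟩ := exists_ne (1 : (W : Subgroup G))
    exact hu1 (Subtype.ext (hall u hu))
  obtain ⟨g₁, W₁, hg₁, hW₁, hfix₁, -⟩ := exists_W hG h hCN htQ ht h₁
  obtain ⟨g₂, W₂, hg₂, hW₂, hfix₂, -⟩ := exists_W hG h hCN htQ ht h₂
  have e₁ := step x₁ h₁ hx₁ g₁ W₁ hg₁ hW₁ hfix₁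
  have e₂ := step x₂ h₂ hx₂ g₂ W₂ hg₂ hW₂ hfix₂
  have h3 : g₁ • Q = g₂ • Q := by rw [← hW₁, ← hW₂, ← e₁, ← e₂]
  have h4 : (g₁⁻¹ * g₂) • Q = Q := by
    rw [mul_smul, ← h3, inv_smul_smul]
  have h5 : g₁⁻¹ * g₂ ∈ Subgroup.centralizer ({t} : Set G) := by
    rw [hCN]
    exact Sylow.smul_eq_iff_mem_normalizer.mp h4
  have h6 : t * (g₁⁻¹ * g₂) = (g₁⁻¹ * g₂) * t := (Subgroup.mem_centralizer_iff.mp h5) t rfl
  rw [hg₁, hg₂]
  calc g₁ * t * g₁⁻¹ = g₁ * (t * (g₁⁻¹ * g₂)) * g₂⁻¹ := by group
    _ = g₁ * ((g₁⁻¹ * g₂) * t) * g₂⁻¹ := by rw [h6]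
    _ = g₂ * t * g₂⁻¹ := by group

/-- A conjugate `d` of `t` does not commute with a four-group of conjugates of `t`, unless it lies in
it. -/
theorem false_of_four {d a₁ a₂ : G} (hd : IsConj t d) (h₁ : IsConj t a₁) (h₂ : IsConj t a₂)
    (h₁₂ : IsConj t (a₁ * a₂)) (hc₁ : a₁ * d = d * a₁) (hc₂ : a₂ * d = d * a₂) (hne₁ : a₁ ≠ d)
    (hne₂ : a₂ ≠ d) (hne₁₂ : a₁ * a₂ ≠ d) : False := by
  have hcard5 : ∀ U : Sylow 5 G, Nat.card U = 5 := by
    intro U
    simpa using card_sylow_eq (p := 5) (k := 1) (m := 288) (by rw [h]; norm_num) (by norm_num) U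
  obtain ⟨g, W, -, -, hfix, hdW⟩ := exists_W hG h hCN htQ ht hd
  have hinv : ∀ a, IsConj t a → a * d = d * a → a ≠ d → ∀ u ∈ (W : Subgroup G), a * u * a⁻¹ = u⁻¹ := by
    intro a ha hcd hne u hu
    have ho := orderOf_of_isConj ha
    rw [ht] at ho
    have ha2 : a ^ 2 = 1 := by
      rw [← ho]
      exact pow_orderOf_eq_one a
    have haN : a ∈ Subgroup.normalizer ((W : Subgroup G) : Set G) :=
      Sylow.smul_eq_iff_mem_normalizer.mp (hfix a hcd.symm)
    refine Cfsg.Agent.Lib.SmallSimple.Sign.conj_eq_inv_of_not_centralizer W (hcard5 W) haN ha2 ?_ hu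
    intro hC
    apply hne
    refine unique_conj hG h hCN htQ ht ha hd W ?_ hdW
    intro u' hu'
    exact ((Subgroup.mem_centralizer_iff.mp hC) u' hu').symm
  apply hne₁₂
  refine unique_conj hG h hCN htQ ht h₁₂ hd W ?_ hdW
  intro u hu
  have e1 := hinv a₂ h₂ hc₂ hne₂ u hu
  have e2 := hinv a₁ h₁ hc₁ hne₁ u hu
  have e3 : a₁ * u⁻¹ * a₁⁻¹ = u := by
    have : a₁ * u⁻¹ * a₁⁻¹ = (a₁ * u * a₁⁻¹)⁻¹ := by group
    rw [this, e2, inv_inv]
  have e4 : a₁ * a₂ * u * (a₁ * a₂)⁻¹ = u := by
    calc a₁ * a₂ * u * (a₁ * a₂)⁻¹ = a₁ * (a₂ * u * a₂⁻¹) * a₁⁻¹ := by group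
      _ = u := by rw [e1, e3]
  exact mul_inv_eq_iff_eq_mul.mp e4

/-- The final contradiction. -/
theorem false_of_count (hX : Nat.card {g // IsConj t g ∧ g ∈ Subgroup.centralizer ({t} : Set G)} = 16)
    (hCQ : Nat.card (Subgroup.centralizer ((Q : Subgroup G) : Set G)) ≤ 20) : False := by
  classical
  have hcard5 : ∀ U : Sylow 5 G, Nat.card U = 5 := by
    intro U
    simpa using card_sylow_eq (p := 5) (k := 1) (m := 288) (by rw [h]; norm_num) (by norm_num) U
  have htM : t ∈ Subgroup.centralizer ({t} : Set G) := by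
    rw [Subgroup.mem_centralizer_iff]
    intro b hb
    rw [Set.mem_singleton_iff] at hb
    subst hb
    rfl
  let O : G → Prop := fun g => IsConj t g ∧ g ∈ Subgroup.centralizer ({t} : Set G) ∧ g ≠ t
  have hO : Nat.card {g // O g} = 15 := by
    have h1 := card_subtype_ne (fun g => IsConj t g ∧ g ∈ Subgroup.centralizer ({t} : Set G))
      (a := t) ⟨IsConj.refl t, htM⟩
    have h2 : Nat.card {g // (IsConj t g ∧ g ∈ Subgroup.centralizer ({t} : Set G)) ∧ g ≠ t} =
        Nat.card {g // O g} := by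
      apply Nat.card_congr
      apply Equiv.subtypeEquivRight
      intro x
      simp only [O, and_assoc]
    rw [h2] at h1
    omega
  -- elements of `O` invert `Q`
  have hinv : ∀ g, O g → ∀ u ∈ (Q : Subgroup G), g * u * g⁻¹ = u⁻¹ := by
    rintro g ⟨hg, hgM, hgt⟩ u hu
    have ho := orderOf_of_isConj hg
    rw [ht] at ho
    have hg2 : g ^ 2 = 1 := by
      rw [← ho]
      exact pow_orderOf_eq_one g
    have hgN : g ∈ Subgroup.normalizer ((Q : Subgroup G) : Set G) := by
      rw [← hCN]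
      exact hgM
    refine Cfsg.Agent.Lib.SmallSimple.Sign.conj_eq_inv_of_not_centralizer Q (hcard5 Q) hgN hg2 ?_ hu
    intro hC
    apply hgt
    refine unique_conj hG h hCN htQ ht hg (IsConj.refl t) Q ?_ htQ
    intro u' hu'
    exact ((Subgroup.mem_centralizer_iff.mp hC) u' hu').symm
  -- a pair `a, t a`
  have hcommO : ∀ g, O g → t * g = g * t := by
    rintro g ⟨-, hgM, -⟩
    exact (Subgroup.mem_centralizer_iff.mp hgM) t rfl
  have hpair : ∃ a, O a ∧ O (t * a) := by
    by_contra hno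
    push Not at hno
    have hpos : 0 < Nat.card {g // O g} := by omega
    obtain ⟨⟨⟨s, hs⟩⟩, -⟩ := Nat.card_pos_iff.mp hpos
    -- the two maps to the centralizer of `Q`
    have hmemC : ∀ g, O g → s⁻¹ * g ∈ Subgroup.centralizer ((Q : Subgroup G) : Set G) := by
      intro g hg
      rw [Subgroup.mem_centralizer_iff]
      intro u hu
      have e1 := hinv g hg u hu
      have e2 := hinv s hs u⁻¹ (Q.inv_mem hu)
      rw [inv_inv] at e2
      have e3 : s⁻¹ * g * u * (s⁻¹ * g)⁻¹ = u := by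
        have e4 : s⁻¹ * u⁻¹ * s = u := by
          have hs2 : s⁻¹ = s := by
            have ho := orderOf_of_isConj hs.1
            rw [ht] at ho
            have h2 : s ^ 2 = 1 := by
              rw [← ho]
              exact pow_orderOf_eq_one s
            exact inv_eq_of_mul_eq_one_left (by rw [← pow_two, h2])
          calc s⁻¹ * u⁻¹ * s = s * u⁻¹ * s⁻¹ := by rw [hs2]
            _ = u := e2
        calc s⁻¹ * g * u * (s⁻¹ * g)⁻¹ = s⁻¹ * (g * u * g⁻¹) * s := by group
          _ = u := by rw [e1, e4]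
      exact (mul_inv_eq_iff_eq_mul.mp e3).symm
    have hmemC' : ∀ g, O g → s⁻¹ * (t * g) ∈ Subgroup.centralizer ((Q : Subgroup G) : Set G) := by
      intro g hg
      rw [Subgroup.mem_centralizer_iff]
      intro u hu
      have e1 := (Subgroup.mem_centralizer_iff.mp (hmemC g hg)) u hu
      have e2 := htQ u hu
      calc u * (s⁻¹ * (t * g)) = u * (s⁻¹ * g * (g⁻¹ * t * g)) := by group
        _ = u * (s⁻¹ * g) * (g⁻¹ * t * g) := by group
        _ = s⁻¹ * g * u * (g⁻¹ * t * g) := by rw [e1]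
        _ = s⁻¹ * (g * u * g⁻¹ * t) * g := by group
        _ = s⁻¹ * (t * (g * u * g⁻¹)) * g := by
          have e3 := htQ _ (by
            rw [hinv g hg u hu]
            exact Q.inv_mem hu : g * u * g⁻¹ ∈ (Q : Subgroup G))
          rw [e3]
        _ = s⁻¹ * (t * g) * u := by group
    let F : {g // O g} ⊕ {g // O g} → Subgroup.centralizer ((Q : Subgroup G) : Set G) :=
      Sum.elim (fun g => ⟨s⁻¹ * g.1, hmemC g.1 g.2⟩) (fun g => ⟨s⁻¹ * (t * g.1), hmemC' g.1 g.2⟩)
    have hF : Function.Injective F := by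
      rintro (a | a) (b | b) hab
      · congr 1
        exact Subtype.ext (mul_left_cancel (congrArg Subtype.val hab))
      · exfalso
        have e : s⁻¹ * a.1 = s⁻¹ * (t * b.1) := congrArg Subtype.val hab
        have e' : a.1 = t * b.1 := mul_left_cancel e
        exact hno b.1 b.2 (e' ▸ a.2)
      · exfalso
        have e : s⁻¹ * (t * a.1) = s⁻¹ * b.1 := congrArg Subtype.val hab
        have e' : t * a.1 = b.1 := mul_left_cancel e
        exact hno a.1 a.2 (e'.symm ▸ b.2)
      · congr 1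
        have e : s⁻¹ * (t * a.1) = s⁻¹ * (t * b.1) := congrArg Subtype.val hab
        exact Subtype.ext (mul_left_cancel (mul_left_cancel e))
    have hle := Nat.card_le_card_of_injective F hF
    rw [Nat.card_sum, hO] at hle
    omega
  obtain ⟨a, ha, hta⟩ := hpair
  -- the parity
  have hao := orderOf_of_isConj ha.1
  rw [ht] at hao
  have hpar := parity_conj hao O (by
    rintro x ⟨hx1, hx2, hx3⟩
    refine ⟨hx1.trans (isConj_iff.mpr ⟨a, rfl⟩), ?_, ?_⟩
    · exact Subgroup.mul_mem _ (Subgroup.mul_mem _ ha.2.1 hx2) (Subgroup.inv_mem _ ha.2.1)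
    · intro e
      apply hx3
      have e1 : a * x = t * a := mul_inv_eq_iff_eq_mul.mp e
      have e2 := hcommO a ha
      rw [e2] at e1
      exact mul_left_cancel e1)
  rw [hO] at hpar
  -- the elements `a`, `t a` are fixed
  let R : G → Prop := fun x => O x ∧ a * x = x * a
  have hR1 : R a := ⟨ha, rfl⟩
  have hR2 : R (t * a) := by
    refine ⟨hta, ?_⟩
    have e2 := hcommO a ha
    calc a * (t * a) = (a * t) * a := (mul_assoc _ _ _).symm
      _ = (t * a) * a := by rw [← e2]
  have htane : t * a ≠ a := by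
    intro e
    have e1 : t = 1 := by
      have := mul_right_cancel (a := t) (b := a) (c := 1) (by rw [e, one_mul])
      exact this
    rw [e1, orderOf_one] at ht
    omega
  have hc1 := card_subtype_ne R hR1
  have hc2 := card_subtype_ne (fun x => R x ∧ x ≠ a) (a := t * a) ⟨hR2, htane⟩
  have hex : 0 < Nat.card {x // (R x ∧ x ≠ a) ∧ x ≠ t * a} := by
    have h15 : Nat.card {x // O x ∧ a * x = x * a} % 2 = 1 := by
      rw [← hpar]
    have h16 : Nat.card {x // R x} = Nat.card {x // O x ∧ a * x = x * a} := rfl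
    omega
  obtain ⟨⟨⟨d, ⟨⟨hdO, hda⟩, hdne⟩, hdne'⟩⟩, -⟩ := Nat.card_pos_iff.mp hex
  -- the contradiction
  exact false_of_four hG h hCN htQ ht (d := d) (a₁ := t) (a₂ := a) hdO.1 (IsConj.refl t) ha.1 hta.1
    ((Subgroup.mem_centralizer_iff.mp hdO.2.1) t rfl) hda (Ne.symm hdO.2.2) (Ne.symm hdne)
    (Ne.symm hdne')

end final

/-- **There is no non-abelian simple group of order 1440.** -/
theorem false_1440 (hG : ¬ IsMulCommutative G) (h : Nat.card G = 1440) : False := by
  classical
  -- `n₅ = 36`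
  have hm5 := card_sylow_mem_candidates (G := G) (p := 5) (k := 1) (m := 288) hG h
    (by norm_num) (by norm_num) (by norm_num)
  have hc5 : candidates 1440 5 1 288 = [16, 36] := by decide +kernel
  rw [hc5] at hm5
  have hn5 : Nat.card (Sylow 5 G) = 36 := by
    simp only [List.mem_cons, List.not_mem_nil, or_false] at hm5
    exact hm5.resolve_left (card_sylow_five_ne hG h)
  obtain ⟨y₀, t₀, hy₀, ht₀, hc₀⟩ := exists_commuting hG (N := 1440) (p := 5) (m := 288) (n := 36) h
    (by norm_num) (by norm_num) hn5 (by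
      intro r hr hr1 hr2
      have hr3 : r ∣ 4 := by simpa using hr
      have hle : r ≤ 4 := Nat.le_of_dvd (by norm_num) hr3
      interval_cases r <;> first | omega | (norm_num) | (exfalso; revert hr3; norm_num))
  -- `n₃`
  have hm3 := card_sylow_mem_candidates (G := G) (p := 3) (k := 2) (m := 160) hG h
    (by norm_num) (by norm_num) (by norm_num)
  have hc3 : candidates 1440 3 2 160 = [10, 16, 40] := by decide +kernel
  rw [hc3] at hm3
  obtain ⟨P₃⟩ : Nonempty (Sylow 3 G) := inferInstance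
  have hK10 : fixOK 10 5 (decide (5 ∣ 1440 / 10)) = false := by decide +kernel
  have hn3 : ¬ Nat.card (Sylow 3 G) ≡ 1 [MOD 3 ^ 2] := by
    simp only [List.mem_cons, List.not_mem_nil, or_false] at hm3
    rcases hm3 with h10 | h16 | h40
    · exact (false_of_index hG h _ ((index_normalizer P₃).trans h10) (by norm_num) hy₀ ht₀ hc₀
        hK10).elim
    · rw [h16]
      decide
    · rw [h40]
      decide
  obtain ⟨w, u, hw, hu, hcw⟩ := exists_commuting_of_not_modEq (G := G) (p := 3) (m := 160)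
    (by rw [h]; norm_num) (by norm_num) hn3 (by decide +kernel)
  -- index nine
  have hK9 : fixOK 9 3 (decide (3 ∣ 1440 / 9)) = false := by decide +kernel
  have h9 : ∀ K : Subgroup G, K.index ≠ 9 := fun K hK =>
    false_of_index hG h K hK (by norm_num) hw hu hcw hK9
  -- `n₂ = 45`
  have hm2 := card_sylow_mem_candidates (G := G) (p := 2) (k := 5) (m := 45) hG h
    (by norm_num) (by norm_num) (by norm_num)
  have hc2 : candidates 1440 2 5 45 = [9, 15, 45] := by decide +kernel
  rw [hc2] at hm2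
  obtain ⟨S⟩ : Nonempty (Sylow 2 G) := inferInstance
  have hK15 : fixOK 15 5 (decide (5 ∣ 1440 / 15)) = false := by decide +kernel
  have hA : (Subgroup.normalizer ((S : Subgroup G) : Set G)).index = 45 := by
    rw [index_normalizer S]
    simp only [List.mem_cons, List.not_mem_nil, or_false] at hm2
    rcases hm2 with h9' | h15 | h45
    · exact (h9 _ ((index_normalizer S).trans h9')).elim
    · exact (false_of_index hG h _ ((index_normalizer S).trans h15) (by norm_num) hy₀ ht₀ hc₀
        hK15).elim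
    · exact h45
  -- the main data
  obtain ⟨Q, hyQ⟩ := exists_sylow_of_orderOf hy₀
  obtain ⟨hCN, hX⟩ := key_count hG h hn5 h9 _ hA hyQ hy₀ ht₀ hc₀
  have hcard5 : ∀ U : Sylow 5 G, Nat.card U = 5 := by
    intro U
    simpa using card_sylow_eq (p := 5) (k := 1) (m := 288) (by rw [h]; norm_num) (by norm_num) U
  have hy1 : y₀ ≠ 1 := by
    rintro e
    rw [e, orderOf_one] at hy₀
    omega
  have htQ : ∀ u ∈ (Q : Subgroup G), t₀ * u = u * t₀ := by
    have h1 : t₀ ∈ Subgroup.centralizer ({y₀} : Set G) := by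
      rw [Subgroup.mem_centralizer_iff]
      intro b hb
      rw [Set.mem_singleton_iff] at hb
      subst hb
      exact hc₀
    rw [centralizer_singleton_eq (hcard5 Q) hyQ hy1] at h1
    intro u hu
    exact ((Subgroup.mem_centralizer_iff.mp h1) u hu).symm
  refine false_of_count hG h hCN htQ ht₀ (by rw [hCN]; exact hX) ?_
  obtain ⟨r, hr, hr1, hN, -⟩ := exists_card_multiples hG (p := 5) (by rw [h]; norm_num) hcard5
  have h2 := card_normalizer_mul Q
  rw [hn5, h, hN Q] at h2
  have hr0 : r ≠ 0 := by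
    rintro rfl
    omega
  have hr2 : 2 ≤ r := by omega
  have hmul : Nat.card (Subgroup.centralizer ((Q : Subgroup G) : Set G)) * 2 ≤
      Nat.card (Subgroup.centralizer ((Q : Subgroup G) : Set G)) * r := Nat.mul_le_mul_left _ hr2
  omega

end Cfsg.Agent.Lib.Small.Ord1440c
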