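/-
Simple groups of order 4080: recognition of PSL(2,16).
-/
import Cfsg.Agent.Lib.Small.TI3
import Cfsg.Agent.Lib.Small.F16
import Cfsg.Agent.Lib.Small.PSL2Check1
import Cfsg.Agent.Lib.Small.PSL2Prime
import Cfsg.Agent.Lib.Small.PSL2Rec

set_option autoImplicit false
set_option linter.unusedSectionVars false
set_option linter.unusedSimpArgs false

namespace Cfsg.Agent.Lib.Small.Ord4080

open OnePoint Cfsg.Agent.Lib.Small.Basic Cfsg.Agent.Lib.Small.Sieve Cfsg.Agent.Lib.Small.TI
  Cfsg.Agent.Lib.Small.TI2 Cfsg.Agent.Lib.Small.TI3 Cfsg.Agent.Lib.Small.F16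
  Cfsg.Agent.Lib.Small.PSL2Prime Cfsg.Agent.Lib.Small.PSL2Check Cfsg.Agent.Lib.Small.PSL2Check1

universe u v

instance fact_prime2 : Fact (Nat.Prime 2) := ⟨by norm_num⟩
instance fact_prime3 : Fact (Nat.Prime 3) := ⟨by norm_num⟩
instance fact_prime5 : Fact (Nat.Prime 5) := ⟨by norm_num⟩
instance fact_prime17 : Fact (Nat.Prime 17) := ⟨by norm_num⟩

variable {G : Type u} [Group G] [Finite G] [IsSimpleGroup G]

lemma not_comm (h : Nat.card G = 4080) : ¬ IsMulCommutative G :=
  not_comm_of_not_prime (by rw [h]; norm_num)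

lemma card_S (h : Nat.card G = 4080) (S : Sylow 2 G) : Nat.card S = 16 := by
  simpa using card_sylow_eq (p := 2) (k := 4) (m := 255) (by rw [h]; norm_num) (by norm_num) S

lemma card_R (h : Nat.card G = 4080) (U : Sylow 3 G) : Nat.card U = 3 := by
  simpa using card_sylow_eq (p := 3) (k := 1) (m := 1360) (by rw [h]; norm_num) (by norm_num) U

lemma card_Q (h : Nat.card G = 4080) (U : Sylow 5 G) : Nat.card U = 5 := by
  simpa using card_sylow_eq (p := 5) (k := 1) (m := 816) (by rw [h]; norm_num) (by norm_num) U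

lemma card_P (h : Nat.card G = 4080) (P : Sylow 17 G) : Nat.card P = 17 := by
  simpa using card_sylow_eq (p := 17) (k := 1) (m := 240) (by rw [h]; norm_num) (by norm_num) P

lemma card_sylow17 (h : Nat.card G = 4080) : Nat.card (Sylow 17 G) = 120 := by
  have hm := card_sylow_mem_candidates (G := G) (p := 17) (k := 1) (m := 240) (not_comm h) h
    (by norm_num) (by norm_num) (by norm_num)
  have hc : candidates 4080 17 1 240 = [120] := by decide +kernel
  rw [hc, List.mem_singleton] at hm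
  exact hm

lemma card_normalizer17 (h : Nat.card G = 4080) (P : Sylow 17 G) :
    Nat.card (Subgroup.normalizer ((P : Subgroup G) : Set G)) = 34 := by
  have h2 := card_normalizer_mul P
  rw [card_sylow17 h, h] at h2
  omega

lemma le_centralizer_self {p : ℕ} [hp : Fact p.Prime] (U : Sylow p G) (hU : Nat.card U = p) :
    (U : Subgroup G) ≤ Subgroup.centralizer ((U : Subgroup G) : Set G) :=
  le_centralizer_of_abelian le_rfl (@IsCyclic.isMulCommutative _ _ (isCyclic_of_prime_card hU))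

/-- `17`: the numerical data. -/
lemma data17 (h : Nat.card G = 4080) :
    (∀ P : Sylow 17 G, Nat.card (Subgroup.centralizer ((P : Subgroup G) : Set G)) = 17) ∧
      1920 ≤ Nat.card {x : G // 17 ∣ orderOf x} := by
  obtain ⟨r, hr, hr1, hN, hle⟩ := exists_card_multiples (not_comm h) (p := 17)
    (by rw [h]; norm_num) (card_P h)
  have hkey : ∀ P : Sylow 17 G,
      Nat.card (Subgroup.centralizer ((P : Subgroup G) : Set G)) = 17 ∧ r = 2 := by
    intro P
    have h1 := hN P
    rw [card_normalizer17 h P] at h1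
    have h2 : 17 ∣ Nat.card (Subgroup.centralizer ((P : Subgroup G) : Set G)) := by
      have := Subgroup.card_dvd_of_le (le_centralizer_self P (card_P h P))
      rwa [card_P h P] at this
    obtain ⟨c, hc⟩ := h2
    rw [hc] at h1 ⊢
    have h3 : r ≤ 16 := Nat.le_of_dvd (by norm_num) hr
    have h4 : r ∣ 16 := hr
    have h5 : c * r = 2 := by
      have : 17 * (c * r) = 17 * 2 := by rw [← mul_assoc, ← h1]
      exact Nat.eq_of_mul_eq_mul_left (by norm_num) this
    have h6 : c ≤ 2 := by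
      by_contra hc2
      have hr0 : r ≠ 0 := by
        rintro rfl
        simp at h5
      nlinarith [Nat.pos_of_ne_zero hr0]
    interval_cases c <;> omega
  obtain ⟨P₀⟩ : Nonempty (Sylow 17 G) := inferInstance
  refine ⟨fun P => (hkey P).1, ?_⟩
  rw [(hkey P₀).2, h] at hle
  omega

/-- `3`: the numerical data. -/
lemma data3 (h : Nat.card G = 4080) :
    (∀ U : Sylow 3 G, Nat.card (Subgroup.normalizer ((U : Subgroup G) : Set G)) =
      Nat.card (Subgroup.centralizer ((U : Subgroup G) : Set G)) * 2) ∧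
      1360 ≤ Nat.card {x : G // 3 ∣ orderOf x} := by
  obtain ⟨r, hr, hr1, hN, hle⟩ := exists_card_multiples (not_comm h) (p := 3)
    (by rw [h]; norm_num) (card_R h)
  have hr2 : r = 2 := by
    have h4 : r ∣ 2 := hr
    rcases (Nat.dvd_prime (by norm_num)).mp h4 with h5 | h5
    · exact absurd h5 hr1
    · exact h5
  subst hr2
  refine ⟨hN, ?_⟩
  rw [h] at hle
  omega

/-- `5`: the numerical data. -/
lemma data5 (h : Nat.card G = 4080) :
    (∃ r, r ∣ 4 ∧ r ≠ 1 ∧ ∀ U : Sylow 5 G, Nat.card (Subgroup.normalizer ((U : Subgroup G) : Set G)) =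
      Nat.card (Subgroup.centralizer ((U : Subgroup G) : Set G)) * r) ∧
      816 ≤ Nat.card {x : G // 5 ∣ orderOf x} := by
  obtain ⟨r, hr, hr1, hN, hle⟩ := exists_card_multiples (not_comm h) (p := 5)
    (by rw [h]; norm_num) (card_Q h)
  refine ⟨⟨r, hr, hr1, hN⟩, ?_⟩
  rw [h] at hle
  have h4 : r ∣ 4 := hr
  have h5 : r ≤ 4 := Nat.le_of_dvd (by norm_num) h4
  have h6 : 0 < r := Nat.pos_of_dvd_of_pos h4 (by norm_num)
  by_contra hlt
  have h7 : Nat.card {x : G // 5 ∣ orderOf x} ≤ 815 := by omega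
  have h8 : Nat.card {x : G // 5 ∣ orderOf x} * (r * 5) ≤ 815 * (4 * 5) :=
    Nat.mul_le_mul h7 (Nat.mul_le_mul_right _ h5)
  omega

/-- Elements of order divisible by `17` lie in a Sylow `17`-subgroup. -/
lemma exists_sylow17 (h : Nat.card G = 4080) {x : G} (hx : 17 ∣ orderOf x) :
    ∃ P : Sylow 17 G, x ∈ P := by
  have hpos : orderOf x ≠ 0 := orderOf_pos x |>.ne'
  have hy := orderOf_pow_orderOf_div hpos hx
  obtain ⟨P, hP⟩ := exists_sylow_of_orderOf hy
  have hy1 : x ^ (orderOf x / 17) ≠ 1 := by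
    intro h1
    rw [h1, orderOf_one] at hy
    omega
  refine ⟨P, ?_⟩
  have hc := centralizer_singleton_eq (card_P h P) hP hy1
  have hxC : x ∈ Subgroup.centralizer ({x ^ (orderOf x / 17)} : Set G) := by
    rw [Subgroup.mem_centralizer_singleton_iff]
    exact ((Commute.refl x).pow_left _).eq.symm
  rw [hc] at hxC
  have heq := Subgroup.eq_of_le_of_card_ge (le_centralizer_self P (card_P h P))
    (by rw [(data17 h).1 P, card_P h P])
  rw [← heq] at hxC
  exact hxC

/-- There is an element of order `15`. -/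
theorem exists_order15 (h : Nat.card G = 4080) : ∃ w : G, orderOf w = 15 := by
  by_contra hno
  have hno' : ∀ w : G, orderOf w ≠ 15 := fun w hw => hno ⟨w, hw⟩
  have h17 : ∀ (x : G), 17 ∣ orderOf x → orderOf x = 17 := by
    intro x hx
    obtain ⟨P, hP⟩ := exists_sylow17 h hx
    have h2 : x ^ 17 = 1 := by
      have h3 := pow_card_of_mem (V := (P : Subgroup G)) hP
      rwa [card_P h P] at h3
    have h3 : x ≠ 1 := by
      rintro rfl
      simp at hx
    exact orderOf_eq_prime h2 h3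
  have hthree := (card_three_le (G := G) (fun x => 3 ∣ orderOf x) (fun x => 5 ∣ orderOf x)
    (fun x => 17 ∣ orderOf x)
    (by
      rintro x hx rfl
      simp at hx)
    (by
      rintro x hx rfl
      simp at hx)
    (by
      rintro x hx rfl
      simp at hx)
    (by
      intro x h3 h5
      have h15 : 15 ∣ orderOf x := by
        have := Nat.Coprime.mul_dvd_of_dvd_of_dvd (by norm_num : Nat.Coprime 3 5) h3 h5
        simpa using this
      exact hno' _ (orderOf_pow_orderOf_div (orderOf_pos x).ne' h15))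
    (by
      intro x h3 h5
      have := h17 x h5
      rw [this] at h3
      omega)
    (by
      intro x h3 h5
      have := h17 x h5
      rw [this] at h3
      omega)).1
  have h1 := (data3 h).2
  have h2 := (data5 h).2
  have h3 := (data17 h).2
  rw [h] at hthree
  omega

lemma card_sylow5 (h : Nat.card G = 4080) : Nat.card (Sylow 5 G) = 136 := by
  have hm := card_sylow_mem_candidates (G := G) (p := 5) (k := 1) (m := 816) (not_comm h) h
    (by norm_num) (by norm_num) (by norm_num)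
  have hc : candidates 4080 5 1 816 = [51, 136] := by decide +kernel
  rw [hc] at hm
  simp only [List.mem_cons, List.not_mem_nil, or_false] at hm
  rcases hm with h1 | h1
  · exfalso
    obtain ⟨w, hw⟩ := exists_order15 h
    have hz : orderOf (w ^ 3) = 5 := by
      rw [orderOf_pow' _ (by norm_num), hw]
      rfl
    have hy : orderOf (w ^ 5) = 3 := by
      rw [orderOf_pow' _ (by norm_num), hw]
      rfl
    obtain ⟨Q, hQ⟩ := exists_sylow_of_orderOf hz
    have hz1 : w ^ 3 ≠ 1 := by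
      intro h0
      rw [h0, orderOf_one] at hz
      omega
    have hc := centralizer_singleton_eq (card_Q h Q) hQ hz1
    have hyC : w ^ 5 ∈ Subgroup.centralizer ({w ^ 3} : Set G) := by
      rw [Subgroup.mem_centralizer_singleton_iff]
      exact ((Commute.refl w).pow_pow _ _).eq
    rw [hc] at hyC
    have hyN := (Subgroup.centralizer_le_normalizer _) hyC
    have hd := Subgroup.orderOf_dvd_natCard _ hyN
    rw [hy] at hd
    have h2 := card_normalizer_mul Q
    rw [h1, h] at h2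
    have h3 : Nat.card (Subgroup.normalizer ((Q : Subgroup G) : Set G)) = 80 := by omega
    have h4 : (3 : ℕ) ∣ 80 := by
      rw [← h3]
      exact hd
    omega
  · exact h1

lemma card_normalizer5 (h : Nat.card G = 4080) (Q : Sylow 5 G) :
    Nat.card (Subgroup.normalizer ((Q : Subgroup G) : Set G)) = 30 := by
  have h2 := card_normalizer_mul Q
  rw [card_sylow5 h, h] at h2
  omega

lemma card_centralizer5 (h : Nat.card G = 4080) (Q : Sylow 5 G) :
    Nat.card (Subgroup.centralizer ((Q : Subgroup G) : Set G)) = 15 := by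
  obtain ⟨r, hr, hr1, hN⟩ := (data5 h).1
  have h1 := hN Q
  rw [card_normalizer5 h Q] at h1
  have hle : r ≤ 4 := Nat.le_of_dvd (by norm_num) hr
  have h5 : 5 ∣ Nat.card (Subgroup.centralizer ((Q : Subgroup G) : Set G)) := by
    have := Subgroup.card_dvd_of_le (le_centralizer_self Q (card_Q h Q))
    rwa [card_Q h Q] at this
  obtain ⟨c, hc⟩ := h5
  rw [hc] at h1 ⊢
  interval_cases r
  · simp at h1
  · exact absurd rfl hr1
  · omega
  · exact absurd hr (by norm_num)
  · omega

lemma exists_gen5 (h : Nat.card G = 4080) (Q : Sylow 5 G) :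
    ∃ w : G, orderOf w = 15 ∧ Subgroup.centralizer ((Q : Subgroup G) : Set G) = Subgroup.zpowers w := by
  have := exists_gen_of_card_mul (G := G) (p := 3) (q := 5) (by norm_num) (by norm_num)
    (Subgroup.centralizer ((Q : Subgroup G) : Set G)) (by rw [card_centralizer5 h Q])
  simpa using this

/-- There are `136` Sylow `3`-subgroups. -/
lemma card_sylow3 (h : Nat.card G = 4080) : Nat.card (Sylow 3 G) = 136 := by
  classical
  have hm := card_sylow_mem_candidates (G := G) (p := 3) (k := 1) (m := 1360) (not_comm h) h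
    (by norm_num) (by norm_num) (by norm_num)
  have hc : candidates 4080 3 1 1360 = [34, 40, 85, 136, 340] := by decide +kernel
  rw [hc] at hm
  simp only [List.mem_cons, List.not_mem_nil, or_false] at hm
  obtain ⟨Q⟩ : Nonempty (Sylow 5 G) := inferInstance
  obtain ⟨w, hw, hwC⟩ := exists_gen5 h Q
  have hy : orderOf (w ^ 5) = 3 := by
    rw [orderOf_pow' _ (by norm_num), hw]
    rfl
  obtain ⟨R₀, hR₀⟩ := exists_sylow_of_orderOf hy
  have hy1 : w ^ 5 ≠ 1 := by
    intro h0
    rw [h0, orderOf_one] at hy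
    omega
  have hcomm : ∀ q ∈ (Q : Subgroup G), q * w = w * q := by
    intro q hq
    have h1 : w ∈ Subgroup.centralizer ((Q : Subgroup G) : Set G) := by
      rw [hwC]
      exact Subgroup.mem_zpowers w
    exact (Subgroup.mem_centralizer_iff.mp h1) q hq
  have hzp : Subgroup.zpowers (w ^ 5) = (R₀ : Subgroup G) := by
    apply Subgroup.eq_of_le_of_card_ge ((Subgroup.zpowers_le).mpr hR₀)
    rw [Nat.card_zpowers, hy, card_R h R₀]
  have hfix : ∀ q ∈ (Q : Subgroup G), q • R₀ = R₀ := by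
    intro q hq
    apply Sylow.smul_eq_iff_mem_normalizer.mpr
    apply (Subgroup.centralizer_le_normalizer _)
    change q ∈ Subgroup.centralizer ((R₀ : Subgroup G) : Set G)
    rw [← centralizer_singleton_eq (card_R h R₀) hR₀ hy1, Subgroup.mem_centralizer_singleton_iff]
    have h1 : Commute q w := hcomm q hq
    exact (h1.pow_right 5).eq
  have huniq : ∀ R : Sylow 3 G, (∀ q ∈ (Q : Subgroup G), q • R = R) → R = R₀ := by
    intro R hR
    have hRcyc : IsCyclic (R : Subgroup G) := isCyclic_of_prime_card (card_R h R)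
    have hle : (R : Subgroup G) ≤ (R₀ : Subgroup G) := by
      intro r hr
      rw [← hzp]
      have hr3 : r ^ 3 = 1 := by
        have := pow_card_of_mem (V := (R : Subgroup G)) hr
        rwa [card_R h R] at this
      refine mem_zpowers_pow (a := 3) (b := 5) (by norm_num) (by rw [hw]) ?_ hr3
      rw [← hwC, Subgroup.mem_centralizer_iff]
      intro q hq
      have hqN := Sylow.smul_eq_iff_mem_normalizer.mp (hR q hq)
      have h2 := pow_totient_mem_centralizer hRcyc hqN
      rw [card_R h R, show Nat.totient 3 = 2 by decide] at h2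
      have hq5 : q ^ 5 = 1 := by
        have := pow_card_of_mem (V := (Q : Subgroup G)) hq
        rwa [card_Q h Q] at this
      have h3 : q = (q ^ 2) ^ 3 := by
        rw [← pow_mul]
        calc q = q ^ 5 * q := by rw [hq5, one_mul]
          _ = q ^ (2 * 3) := by rw [← pow_succ]
      rw [h3]
      have h4 := (Subgroup.mem_centralizer_iff.mp h2) r hr
      exact ((Commute.pow_right (show Commute r (q ^ 2) from h4) 3).eq).symm
    exact Sylow.ext (R.is_maximal' R₀.isPGroup' hle).symm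
  have hfc : Nat.card (MulAction.fixedPoints (Q : Subgroup G) (Sylow 3 G)) = 1 := by
    rw [Nat.card_eq_one_iff_unique]
    refine ⟨⟨?_⟩, ⟨⟨R₀, fun q => hfix q q.2⟩⟩⟩
    rintro ⟨R, hR⟩ ⟨R', hR'⟩
    apply Subtype.ext
    have h1 := huniq R (fun q hq => hR ⟨q, hq⟩)
    have h2 := huniq R' (fun q hq => hR' ⟨q, hq⟩)
    exact h1.trans h2.symm
  have hmod := Q.isPGroup'.card_modEq_card_fixedPoints (Sylow 3 G)
  rw [hfc] at hmod
  have hmod' : Nat.card (Sylow 3 G) % 5 = 1 := hmod
  omega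

lemma card_centralizer3 (h : Nat.card G = 4080) (R : Sylow 3 G) :
    Nat.card (Subgroup.centralizer ((R : Subgroup G) : Set G)) = 15 := by
  have h1 := (data3 h).1 R
  have h2 := card_normalizer_mul R
  rw [card_sylow3 h, h, h1] at h2
  omega

/-- The centralizer of an element of order `3` or `5` has order `15`. -/
lemma card_centralizer_of_orderOf (h : Nat.card G = 4080) {y : G} (hy : orderOf y = 3 ∨ orderOf y = 5) :
    Nat.card (Subgroup.centralizer ({y} : Set G)) = 15 := by
  rcases hy with hy | hy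
  · obtain ⟨R, hR⟩ := exists_sylow_of_orderOf hy
    have hy1 : y ≠ 1 := by
      rintro rfl
      rw [orderOf_one] at hy
      omega
    rw [centralizer_singleton_eq (card_R h R) hR hy1, card_centralizer3 h R]
  · obtain ⟨R, hR⟩ := exists_sylow_of_orderOf hy
    have hy1 : y ≠ 1 := by
      rintro rfl
      rw [orderOf_one] at hy
      omega
    rw [centralizer_singleton_eq (card_Q h R) hR hy1, card_centralizer5 h R]

/-- A non-trivial element of the centralizer of a Sylow `5`-subgroup has the same centralizer. -/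
theorem centralizer_eq_of_mem (h : Nat.card G = 4080) (Q : Sylow 5 G) {y : G}
    (hy : y ∈ Subgroup.centralizer ((Q : Subgroup G) : Set G)) (hy1 : y ≠ 1) :
    Subgroup.centralizer ({y} : Set G) = Subgroup.centralizer ((Q : Subgroup G) : Set G) := by
  obtain ⟨w, hw, hwC⟩ := exists_gen5 h Q
  have hab : ∀ a ∈ Subgroup.centralizer ((Q : Subgroup G) : Set G),
      ∀ b ∈ Subgroup.centralizer ((Q : Subgroup G) : Set G), a * b = b * a := by
    intro a ha b hb
    rw [hwC] at ha hb
    obtain ⟨i, rfl⟩ := Subgroup.mem_zpowers_iff.mp ha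
    obtain ⟨j, rfl⟩ := Subgroup.mem_zpowers_iff.mp hb
    exact ((Commute.refl w).zpow_zpow i j).eq
  have hle1 : Subgroup.centralizer ((Q : Subgroup G) : Set G) ≤ Subgroup.centralizer ({y} : Set G) := by
    intro a ha
    rw [Subgroup.mem_centralizer_singleton_iff]
    exact hab _ ha _ hy
  apply le_antisymm _ hle1
  have hod : orderOf y ∣ 15 := by
    have := Subgroup.orderOf_dvd_natCard _ hy
    rwa [card_centralizer5 h Q] at this
  have hne : orderOf y ≠ 1 := fun h0 => hy1 (orderOf_eq_one_iff.mp h0)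
  -- an element `y'` of prime order
  have hex : ∃ k : ℕ, orderOf (y ^ k) = 3 ∨ orderOf (y ^ k) = 5 := by
    have hle := Nat.le_of_dvd (by norm_num) hod
    have h3or5 : 3 ∣ orderOf y ∨ 5 ∣ orderOf y := by
      generalize orderOf y = o at *
      interval_cases o <;> omega
    rcases h3or5 with h3 | h5
    · exact ⟨_, Or.inl (orderOf_pow_orderOf_div (orderOf_pos y).ne' h3)⟩
    · exact ⟨_, Or.inr (orderOf_pow_orderOf_div (orderOf_pos y).ne' h5)⟩
  obtain ⟨k, hk⟩ := hex
  have hy'C : y ^ k ∈ Subgroup.centralizer ((Q : Subgroup G) : Set G) := Subgroup.pow_mem _ hy k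
  have hle2 : Subgroup.centralizer ((Q : Subgroup G) : Set G) ≤
      Subgroup.centralizer ({y ^ k} : Set G) := by
    intro a ha
    rw [Subgroup.mem_centralizer_singleton_iff]
    exact hab _ ha _ hy'C
  have heq := Subgroup.eq_of_le_of_card_ge hle2
    (by rw [card_centralizer_of_orderOf h hk, card_centralizer5 h Q])
  rw [heq]
  intro a ha
  rw [Subgroup.mem_centralizer_singleton_iff] at ha ⊢
  have h1 : Commute a y := ha
  exact (h1.pow_right k).eq

/-- The centralizers of Sylow `5`-subgroups intersect trivially. -/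
theorem centralizer_inf_eq_bot (h : Nat.card G = 4080) (Q Q' : Sylow 5 G) (hne : Q ≠ Q') :
    Subgroup.centralizer ((Q : Subgroup G) : Set G) ⊓ Subgroup.centralizer ((Q' : Subgroup G) : Set G)
      = ⊥ := by
  rw [Subgroup.eq_bot_iff_forall]
  intro x hx
  by_contra hx1
  apply hne
  have heq : Subgroup.centralizer ((Q : Subgroup G) : Set G) =
      Subgroup.centralizer ((Q' : Subgroup G) : Set G) := by
    rw [← centralizer_eq_of_mem h Q hx.1 hx1, centralizer_eq_of_mem h Q' hx.2 hx1]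
  obtain ⟨w, hw, hwC⟩ := exists_gen5 h Q
  have hcard : Nat.card (Subgroup.zpowers (w ^ 3)) = 5 := by
    rw [Nat.card_zpowers, orderOf_pow' _ (by norm_num), hw]
    rfl
  have hle : ∀ Q'' : Sylow 5 G, Subgroup.centralizer ((Q'' : Subgroup G) : Set G) = Subgroup.zpowers w →
      (Q'' : Subgroup G) = Subgroup.zpowers (w ^ 3) := by
    intro Q'' hQ''
    apply Subgroup.eq_of_le_of_card_ge
    · intro q hq
      have hq5 : q ^ 5 = 1 := by
        have := pow_card_of_mem (V := (Q'' : Subgroup G)) hq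
        rwa [card_Q h Q''] at this
      refine mem_zpowers_pow (a := 5) (b := 3) (by norm_num) (by rw [hw]) ?_ hq5
      rw [← hQ'']
      exact le_centralizer_self Q'' (card_Q h Q'') hq
    · rw [hcard, card_Q h Q'']
  apply Sylow.ext
  rw [hle Q hwC, hle Q' (heq.symm.trans hwC)]

/-- The centralizer of an involution is a `2`-group. -/
theorem card_centralizer_dvd (h : Nat.card G = 4080) {t : G} (ht2 : t ^ 2 = 1) (ht1 : t ≠ 1) :
    Nat.card (Subgroup.centralizer ({t} : Set G)) ∣ 16 := by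
  have hodd : ∀ y : G, (orderOf y = 3 ∨ orderOf y = 5) → y * t = t * y → False := by
    intro y hy hyt
    have h1 : t ∈ Subgroup.centralizer ({y} : Set G) := by
      rw [Subgroup.mem_centralizer_singleton_iff]
      exact hyt.symm
    have h2 := card_centralizer_of_orderOf h hy
    exact ht1 (eq_one_of_pow_of_mem (V := Subgroup.centralizer ({y} : Set G)) h1 ht2
      (by rw [h2]; norm_num))
  have h3 : ¬ 3 ∣ Nat.card (Subgroup.centralizer ({t} : Set G)) := by
    intro hd
    obtain ⟨y, hy⟩ := exists_prime_orderOf_dvd_card' (G := Subgroup.centralizer ({t} : Set G)) 3 hd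
    have hyG : orderOf (y : G) = 3 := by rw [Subgroup.orderOf_coe, hy]
    exact hodd y (Or.inl hyG) (Subgroup.mem_centralizer_singleton_iff.mp y.2)
  have h5 : ¬ 5 ∣ Nat.card (Subgroup.centralizer ({t} : Set G)) := by
    intro hd
    obtain ⟨y, hy⟩ := exists_prime_orderOf_dvd_card' (G := Subgroup.centralizer ({t} : Set G)) 5 hd
    have hyG : orderOf (y : G) = 5 := by rw [Subgroup.orderOf_coe, hy]
    exact hodd y (Or.inr hyG) (Subgroup.mem_centralizer_singleton_iff.mp y.2)
  have h17 : ¬ 17 ∣ Nat.card (Subgroup.centralizer ({t} : Set G)) := by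
    intro hd
    obtain ⟨y, hy⟩ := exists_prime_orderOf_dvd_card' (G := Subgroup.centralizer ({t} : Set G)) 17 hd
    have hyG : orderOf (y : G) = 17 := by rw [Subgroup.orderOf_coe, hy]
    obtain ⟨V, hV⟩ := exists_sylow_of_orderOf hyG
    have hyne : (y : G) ≠ 1 := by
      intro h1
      rw [h1, orderOf_one] at hyG
      omega
    have hcomm : (y : G) * t = t * y := Subgroup.mem_centralizer_singleton_iff.mp y.2
    have h1 : t ∈ Subgroup.centralizer ({(y : G)} : Set G) := by
      rw [Subgroup.mem_centralizer_singleton_iff]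
      exact hcomm.symm
    rw [centralizer_singleton_eq (card_P h V) hV hyne] at h1
    exact ht1 (eq_one_of_pow_of_mem h1 ht2 (by rw [(data17 h).1 V]; norm_num))
  have hd : Nat.card (Subgroup.centralizer ({t} : Set G)) ∣ 16 * 255 := by
    have := Subgroup.card_subgroup_dvd_card (Subgroup.centralizer ({t} : Set G))
    rwa [h] at this
  have hc3 : Nat.Coprime (Nat.card (Subgroup.centralizer ({t} : Set G))) 3 :=
    ((Nat.Prime.coprime_iff_not_dvd (by norm_num)).mpr h3).symm
  have hc5 : Nat.Coprime (Nat.card (Subgroup.centralizer ({t} : Set G))) 5 :=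
    ((Nat.Prime.coprime_iff_not_dvd (by norm_num)).mpr h5).symm
  have hc17 : Nat.Coprime (Nat.card (Subgroup.centralizer ({t} : Set G))) 17 :=
    ((Nat.Prime.coprime_iff_not_dvd (by norm_num)).mpr h17).symm
  have hc255 : Nat.Coprime (Nat.card (Subgroup.centralizer ({t} : Set G))) 255 := by
    have : (255 : ℕ) = 3 * 5 * 17 := by norm_num
    rw [this]
    exact Nat.Coprime.mul_right (Nat.Coprime.mul_right hc3 hc5) hc17
  exact hc255.dvd_of_dvd_mul_right hd

/-- The element count: with `t` an involution every element is trivial, in the centralizer of a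
Sylow `5`-subgroup, a `17`-element, or conjugate to `t`; the centralizer of `t` has order `16`. -/
theorem count (h : Nat.card G = 4080) {t : G} (ht2 : t ^ 2 = 1) (ht1 : t ≠ 1) :
    Nat.card (Subgroup.centralizer ({t} : Set G)) = 16 ∧
    ∀ x : G, x = 1 ∨ (∃ Q : Sylow 5 G, x ∈ Subgroup.centralizer ((Q : Subgroup G) : Set G)) ∨
      (∃ V : Sylow 17 G, x ∈ V) ∨ IsConj t x := by
  have hconj : ∀ x, IsConj t x → x ^ 2 = 1 ∧ x ≠ 1 := by
    intro x hx
    obtain ⟨c, hc⟩ := isConj_iff.mp hx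
    constructor
    · rw [← hc, conj_pow, ht2]
      group
    · rintro rfl
      exact ht1 (isConj_one_right.mp hx.symm)
  have hthree := card_three_le (G := G)
    (fun x => x ≠ 1 ∧ ∃ Q : Sylow 5 G, x ∈ Subgroup.centralizer ((Q : Subgroup G) : Set G))
    (fun x => x ≠ 1 ∧ ∃ V : Sylow 17 G, x ∈ V) (fun x => IsConj t x)
    (fun x hx => hx.1) (fun x hx => hx.1) (fun x hx => (hconj x hx).2)
    (by
      rintro x ⟨hx1, V, hxV⟩ ⟨-, P, hxP⟩
      apply hx1
      have h7 := pow_card_of_mem (V := (P : Subgroup G)) hxP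
      rw [card_P h P] at h7
      exact eq_one_of_pow_of_mem hxV h7 (by rw [card_centralizer5 h V]; norm_num))
    (by
      rintro x ⟨hx1, V, hxV⟩ hc
      apply hx1
      exact eq_one_of_pow_of_mem hxV (hconj x hc).1 (by rw [card_centralizer5 h V]; norm_num))
    (by
      rintro x ⟨hx1, V, hxV⟩ hc
      apply hx1
      exact eq_one_of_pow_of_mem (V := (V : Subgroup G)) hxV (hconj x hc).1
        (by rw [card_P h V]; norm_num))
  have hc5 := card_union_family (fun Q : Sylow 5 G => Subgroup.centralizer ((Q : Subgroup G) : Set G))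
    15 (centralizer_inf_eq_bot h) (card_centralizer5 h)
  have hc17 := card_union (isTI_of_card_prime (card_P h)) 17 (card_P h)
  rw [card_sylow5 h] at hc5
  rw [card_sylow17 h] at hc17
  have hcl := card_class_mul_centralizer t
  have hd := card_centralizer_dvd h ht2 ht1
  rw [h] at hcl
  rw [hc5, hc17, h] at hthree
  have hle := hthree.1
  have hC : Nat.card (Subgroup.centralizer ({t} : Set G)) = 16 := by
    have hle8 := Nat.le_of_dvd (by norm_num) hd
    have hpos : 0 < Nat.card (Subgroup.centralizer ({t} : Set G)) := Nat.card_pos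
    generalize Nat.card (Subgroup.centralizer ({t} : Set G)) = c at *
    generalize Nat.card {x // IsConj t x} = e at *
    interval_cases c <;> omega
  refine ⟨hC, fun x => ?_⟩
  have hcard : Nat.card {x // IsConj t x} = 255 := by
    rw [hC] at hcl
    omega
  rcases hthree.2 (by rw [hcard]) x with h1 | h1 | h1 | h1
  · exact Or.inl h1
  · exact Or.inr (Or.inl h1.2)
  · exact Or.inr (Or.inr (Or.inl h1.2))
  · exact Or.inr (Or.inr (Or.inr h1))

/-- There is an involution. -/
lemma exists_involution (h : Nat.card G = 4080) : ∃ t : G, t ^ 2 = 1 ∧ t ≠ 1 := by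
  obtain ⟨t, ht⟩ := exists_prime_orderOf_dvd_card' (G := G) 2 (by rw [h]; norm_num)
  refine ⟨t, ?_, ?_⟩
  · have := pow_orderOf_eq_one t
    rwa [ht] at this
  · rintro rfl
    rw [orderOf_one] at ht
    omega

/-- Non-trivial elements of Sylow `2`-subgroups are involutions. -/
theorem sq_eq_one_of_mem (h : Nat.card G = 4080) (S : Sylow 2 G) {x : G} (hx : x ∈ S) : x ^ 2 = 1 := by
  by_cases hx1 : x = 1
  · simp [hx1]
  obtain ⟨t, ht2, ht1⟩ := exists_involution h
  have hx8 := pow_card_of_mem (V := (S : Subgroup G)) hx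
  rw [card_S h S] at hx8
  rcases (count h ht2 ht1).2 x with h1 | ⟨V, hV⟩ | ⟨V, hV⟩ | h1
  · exact absurd h1 hx1
  · exact absurd (eq_one_of_pow_of_mem hV hx8 (by rw [card_centralizer5 h V]; norm_num)) hx1
  · exact absurd (eq_one_of_pow_of_mem (V := (V : Subgroup G)) hV hx8
      (by rw [card_P h V]; norm_num)) hx1
  · obtain ⟨c, hc⟩ := isConj_iff.mp h1
    rw [← hc, conj_pow, ht2]
    group

/-- Sylow `2`-subgroups are abelian. -/
theorem comm_of_mem (h : Nat.card G = 4080) (S : Sylow 2 G) {a b : G} (ha : a ∈ S) (hb : b ∈ S) :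
    a * b = b * a := by
  have h1 := sq_eq_one_of_mem h S ha
  have h2 := sq_eq_one_of_mem h S hb
  have h3 := sq_eq_one_of_mem h S (S.mul_mem ha hb)
  have ha' : a⁻¹ = a := inv_eq_of_mul_eq_one_left (by rw [← pow_two, h1])
  have hb' : b⁻¹ = b := inv_eq_of_mul_eq_one_left (by rw [← pow_two, h2])
  have h4 : (a * b)⁻¹ = a * b := inv_eq_of_mul_eq_one_left (by rw [← pow_two, h3])
  rw [mul_inv_rev, ha', hb'] at h4
  exact h4.symm

/-- The centralizer of a non-trivial element of `S` is `S`. -/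
theorem centralizer_eq (h : Nat.card G = 4080) (S : Sylow 2 G) {x : G} (hx : x ∈ S) (hx1 : x ≠ 1) :
    Subgroup.centralizer ({x} : Set G) = (S : Subgroup G) := by
  have hle : (S : Subgroup G) ≤ Subgroup.centralizer ({x} : Set G) := by
    intro a ha
    rw [Subgroup.mem_centralizer_singleton_iff]
    exact comm_of_mem h S ha hx
  symm
  apply Subgroup.eq_of_le_of_card_ge hle
  rw [(count h (sq_eq_one_of_mem h S hx) hx1).1, card_S h S]

/-- The Sylow `2`-subgroups intersect trivially. -/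
theorem isTI2 (h : Nat.card G = 4080) : IsTI 2 G := by
  intro S S' hne
  rw [Subgroup.eq_bot_iff_forall]
  intro x hx
  by_contra hx1
  apply hne
  apply Sylow.ext
  rw [← centralizer_eq h S hx.1 hx1, ← centralizer_eq h S' hx.2 hx1]

/-- There are seventeen Sylow `2`-subgroups. -/
theorem card_sylow2 (h : Nat.card G = 4080) : Nat.card (Sylow 2 G) = 17 := by
  have hm := card_sylow_mem_candidates (G := G) (p := 2) (k := 4) (m := 255) (not_comm h) h
    (by norm_num) (by norm_num) (by norm_num)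
  have hc : candidates 4080 2 4 255 = [17, 51, 85, 255] := by decide +kernel
  rw [hc] at hm
  have hthree := (card_three_le (G := G)
    (fun x => x ≠ 1 ∧ ∃ Q : Sylow 5 G, x ∈ Subgroup.centralizer ((Q : Subgroup G) : Set G))
    (fun x => x ≠ 1 ∧ ∃ V : Sylow 17 G, x ∈ V) (fun x => x ≠ 1 ∧ ∃ V : Sylow 2 G, x ∈ V)
    (fun x hx => hx.1) (fun x hx => hx.1) (fun x hx => hx.1)
    (by
      rintro x ⟨hx1, V, hxV⟩ ⟨-, P, hxP⟩
      apply hx1
      have h7 := pow_card_of_mem (V := (P : Subgroup G)) hxP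
      rw [card_P h P] at h7
      exact eq_one_of_pow_of_mem hxV h7 (by rw [card_centralizer5 h V]; norm_num))
    (by
      rintro x ⟨hx1, V, hxV⟩ ⟨-, P, hxP⟩
      apply hx1
      have h7 := pow_card_of_mem (V := (P : Subgroup G)) hxP
      rw [card_S h P] at h7
      exact eq_one_of_pow_of_mem hxV h7 (by rw [card_centralizer5 h V]; norm_num))
    (by
      rintro x ⟨hx1, V, hxV⟩ ⟨-, P, hxP⟩
      apply hx1
      have h7 := pow_card_of_mem (V := (P : Subgroup G)) hxP
      rw [card_S h P] at h7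
      exact eq_one_of_pow_of_mem (V := (V : Subgroup G)) hxV h7
        (by rw [card_P h V]; norm_num))).1
  have hc5 := card_union_family (fun Q : Sylow 5 G => Subgroup.centralizer ((Q : Subgroup G) : Set G))
    15 (centralizer_inf_eq_bot h) (card_centralizer5 h)
  have hc17 := card_union (isTI_of_card_prime (card_P h)) 17 (card_P h)
  have hc2 := card_union (isTI2 h) 16 (card_S h)
  rw [card_sylow5 h] at hc5
  rw [card_sylow17 h] at hc17
  rw [hc5, hc17, hc2, h] at hthree
  simp only [List.mem_cons, List.not_mem_nil, or_false] at hm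
  omega

/-- Elements different from one. -/
lemma card_ne_one (H : Subgroup G) : Nat.card {x : H // x ≠ 1} = Nat.card H - 1 := by
  classical
  have hsum : Nat.card {x : H // x = 1} + Nat.card {x : H // x ≠ 1} = Nat.card H := by
    rw [← Nat.card_sum]
    exact Nat.card_congr (Equiv.sumCompl _)
  have h2 : Nat.card {x : H // x = 1} = 1 := Nat.card_unique
  omega

/-- Excluding the wrong relations in the field with sixteen elements. -/
theorem exclude16 {A : Type*} [CommGroup A] (u : ℕ → A) (hsq : ∀ i, u i * u i = 1)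
    (h15 : ∀ i, u (i + 15) = u i) (hinj : ∀ a b, a < b → b < 15 → u a ≠ u b) {k : ℕ}
    (hk2 : 2 ≤ k) (hk15 : k < 15) (hms : ∀ j, u j * u (j + 1) = u (j + k)) : k = 4 ∨ k = 12 := by
  have hsq' : ∀ i (z : A), u i * (u i * z) = z := fun i z => by rw [← mul_assoc, hsq, one_mul]
  have key : ∀ a b, u a * u b = 1 → u a = u b := fun a b hab => by
    calc u a = u a * (u b * u b) := by rw [hsq, mul_one]
      _ = (u a * u b) * u b := by rw [mul_assoc]
      _ = u b := by rw [hab, one_mul]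
  have umod : ∀ n, u n = u (n % 15) := by
    intro n
    induction n using Nat.strong_induction_on with
    | _ n ih =>
      by_cases hn : n < 15
      · rw [Nat.mod_eq_of_lt hn]
      · obtain ⟨m, rfl⟩ : ∃ m, n = m + 15 := ⟨n - 15, by omega⟩
        rw [h15, Nat.add_mod_right]
        exact ih m (by omega)
  have hr : ∀ j, u (j % 15) * u ((j + 1) % 15) * u ((j + k) % 15) = 1 := by
    intro j
    rw [← umod, ← umod, ← umod, hms, hsq]
  interval_cases k
  · -- `k = 2`
    exfalso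
    have r0 : u 0 * u 1 * u 2 = 1 := hr 0
    have r1 : u 1 * u 2 * u 3 = 1 := hr 1
    have e : (u 0 * u 1 * u 2) * (u 1 * u 2 * u 3) = u 0 * u 3 := by
      simp only [mul_assoc, mul_left_comm, mul_comm, hsq, hsq', mul_one, one_mul]
    rw [r0, r1] at e
    simp only [one_mul] at e
    exact hinj 0 3 (by norm_num) (by norm_num) (key _ _ e.symm)
  · -- `k = 3`
    exfalso
    have r0 : u 0 * u 1 * u 3 = 1 := hr 0
    have r1 : u 1 * u 2 * u 4 = 1 := hr 1
    have r2 : u 2 * u 3 * u 5 = 1 := hr 2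
    have r4 : u 4 * u 5 * u 7 = 1 := hr 4
    have e : (u 0 * u 1 * u 3) * (u 1 * u 2 * u 4) * (u 2 * u 3 * u 5) * (u 4 * u 5 * u 7) = u 0 * u 7 := by
      simp only [mul_assoc, mul_left_comm, mul_comm, hsq, hsq', mul_one, one_mul]
    rw [r0, r1, r2, r4] at e
    simp only [one_mul] at e
    exact hinj 0 7 (by norm_num) (by norm_num) (key _ _ e.symm)
  · exact Or.inl rfl
  · -- `k = 5`
    exfalso
    have r0 : u 0 * u 1 * u 5 = 1 := hr 0
    have r1 : u 1 * u 2 * u 6 = 1 := hr 1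
    have r5 : u 5 * u 6 * u 10 = 1 := hr 5
    have r10 : u 10 * u 11 * u 0 = 1 := hr 10
    have e : (u 0 * u 1 * u 5) * (u 1 * u 2 * u 6) * (u 5 * u 6 * u 10) * (u 10 * u 11 * u 0) = u 2 * u 11 := by
      simp only [mul_assoc, mul_left_comm, mul_comm, hsq, hsq', mul_one, one_mul]
    rw [r0, r1, r5, r10] at e
    simp only [one_mul] at e
    exact hinj 2 11 (by norm_num) (by norm_num) (key _ _ e.symm)
  · -- `k = 6`
    exfalso
    have r0 : u 0 * u 1 * u 6 = 1 := hr 0
    have r1 : u 1 * u 2 * u 7 = 1 := hr 1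
    have r6 : u 6 * u 7 * u 12 = 1 := hr 6
    have r11 : u 11 * u 12 * u 2 = 1 := hr 11
    have e : (u 0 * u 1 * u 6) * (u 1 * u 2 * u 7) * (u 6 * u 7 * u 12) * (u 11 * u 12 * u 2) = u 0 * u 11 := by
      simp only [mul_assoc, mul_left_comm, mul_comm, hsq, hsq', mul_one, one_mul]
    rw [r0, r1, r6, r11] at e
    simp only [one_mul] at e
    exact hinj 0 11 (by norm_num) (by norm_num) (key _ _ e.symm)
  · -- `k = 7`
    exfalso
    have r0 : u 0 * u 1 * u 7 = 1 := hr 0
    have r1 : u 1 * u 2 * u 8 = 1 := hr 1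
    have r2 : u 2 * u 3 * u 9 = 1 := hr 2
    have r8 : u 8 * u 9 * u 0 = 1 := hr 8
    have e : (u 0 * u 1 * u 7) * (u 1 * u 2 * u 8) * (u 2 * u 3 * u 9) * (u 8 * u 9 * u 0) = u 3 * u 7 := by
      simp only [mul_assoc, mul_left_comm, mul_comm, hsq, hsq', mul_one, one_mul]
    rw [r0, r1, r2, r8] at e
    simp only [one_mul] at e
    exact hinj 3 7 (by norm_num) (by norm_num) (key _ _ e.symm)
  · -- `k = 8`
    exfalso
    have r0 : u 0 * u 1 * u 8 = 1 := hr 0
    have r7 : u 7 * u 8 * u 0 = 1 := hr 7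
    have e : (u 0 * u 1 * u 8) * (u 7 * u 8 * u 0) = u 1 * u 7 := by
      simp only [mul_assoc, mul_left_comm, mul_comm, hsq, hsq', mul_one, one_mul]
    rw [r0, r7] at e
    simp only [one_mul] at e
    exact hinj 1 7 (by norm_num) (by norm_num) (key _ _ e.symm)
  · -- `k = 9`
    exfalso
    have r0 : u 0 * u 1 * u 9 = 1 := hr 0
    have r1 : u 1 * u 2 * u 10 = 1 := hr 1
    have r2 : u 2 * u 3 * u 11 = 1 := hr 2
    have r9 : u 9 * u 10 * u 3 = 1 := hr 9
    have e : (u 0 * u 1 * u 9) * (u 1 * u 2 * u 10) * (u 2 * u 3 * u 11) * (u 9 * u 10 * u 3) = u 0 * u 11 := by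
      simp only [mul_assoc, mul_left_comm, mul_comm, hsq, hsq', mul_one, one_mul]
    rw [r0, r1, r2, r9] at e
    simp only [one_mul] at e
    exact hinj 0 11 (by norm_num) (by norm_num) (key _ _ e.symm)
  · -- `k = 10`
    exfalso
    have r0 : u 0 * u 1 * u 10 = 1 := hr 0
    have r1 : u 1 * u 2 * u 11 = 1 := hr 1
    have r5 : u 5 * u 6 * u 0 = 1 := hr 5
    have r10 : u 10 * u 11 * u 5 = 1 := hr 10
    have e : (u 0 * u 1 * u 10) * (u 1 * u 2 * u 11) * (u 5 * u 6 * u 0) * (u 10 * u 11 * u 5) = u 2 * u 6 := by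
      simp only [mul_assoc, mul_left_comm, mul_comm, hsq, hsq', mul_one, one_mul]
    rw [r0, r1, r5, r10] at e
    simp only [one_mul] at e
    exact hinj 2 6 (by norm_num) (by norm_num) (key _ _ e.symm)
  · -- `k = 11`
    exfalso
    have r0 : u 0 * u 1 * u 11 = 1 := hr 0
    have r1 : u 1 * u 2 * u 12 = 1 := hr 1
    have r6 : u 6 * u 7 * u 2 = 1 := hr 6
    have r11 : u 11 * u 12 * u 7 = 1 := hr 11
    have e : (u 0 * u 1 * u 11) * (u 1 * u 2 * u 12) * (u 6 * u 7 * u 2) * (u 11 * u 12 * u 7) = u 0 * u 6 := by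
      simp only [mul_assoc, mul_left_comm, mul_comm, hsq, hsq', mul_one, one_mul]
    rw [r0, r1, r6, r11] at e
    simp only [one_mul] at e
    exact hinj 0 6 (by norm_num) (by norm_num) (key _ _ e.symm)
  · exact Or.inr rfl
  · -- `k = 13`
    exfalso
    have r0 : u 0 * u 1 * u 13 = 1 := hr 0
    have r1 : u 1 * u 2 * u 14 = 1 := hr 1
    have r2 : u 2 * u 3 * u 0 = 1 := hr 2
    have r13 : u 13 * u 14 * u 11 = 1 := hr 13
    have e : (u 0 * u 1 * u 13) * (u 1 * u 2 * u 14) * (u 2 * u 3 * u 0) * (u 13 * u 14 * u 11) = u 3 * u 11 := by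
      simp only [mul_assoc, mul_left_comm, mul_comm, hsq, hsq', mul_one, one_mul]
    rw [r0, r1, r2, r13] at e
    simp only [one_mul] at e
    exact hinj 3 11 (by norm_num) (by norm_num) (key _ _ e.symm)
  · -- `k = 14`
    exfalso
    have r0 : u 0 * u 1 * u 14 = 1 := hr 0
    have r1 : u 1 * u 2 * u 0 = 1 := hr 1
    have e : (u 0 * u 1 * u 14) * (u 1 * u 2 * u 0) = u 2 * u 14 := by
      simp only [mul_assoc, mul_left_comm, mul_comm, hsq, hsq', mul_one, one_mul]
    rw [r0, r1] at e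
    simp only [one_mul] at e
    exact hinj 2 14 (by norm_num) (by norm_num) (key _ _ e.symm)

/-- The relation in the field with sixteen elements. -/
theorem exists_rel (h : Nat.card G = 4080) (S : Sylow 2 G) {h₀ u₀ : G}
    (hN : h₀ ∈ Subgroup.normalizer ((S : Subgroup G) : Set G)) (hord : orderOf h₀ = 15)
    (hu₀ : u₀ ∈ S) (hu₀1 : u₀ ≠ 1) :
    h₀ ^ 4 * u₀ * (h₀ ^ 4)⁻¹ = u₀ * (h₀ * u₀ * h₀⁻¹) ∨
      h₀⁻¹ ^ 4 * u₀ * (h₀⁻¹ ^ 4)⁻¹ = u₀ * (h₀⁻¹ * u₀ * h₀⁻¹⁻¹) := by
  have hh15 : h₀ ^ 15 = 1 := by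
    rw [← hord]
    exact pow_orderOf_eq_one h₀
  let u : ℕ → G := fun k => h₀ ^ k * u₀ * (h₀ ^ k)⁻¹
  have hu : ∀ k, u k = h₀ ^ k * u₀ * (h₀ ^ k)⁻¹ := fun k => rfl
  have huS : ∀ k, u k ∈ S := fun k =>
    (Subgroup.mem_normalizer_iff.mp (Subgroup.pow_mem _ hN k) u₀).mp hu₀
  have hu1 : ∀ k, u k ≠ 1 := by
    intro k hk
    apply hu₀1
    rw [hu] at hk
    have h1 : u₀ = (h₀ ^ k)⁻¹ * (h₀ ^ k * u₀ * (h₀ ^ k)⁻¹) * h₀ ^ k := by group
    rw [h1, hk]
    group
  have hu15 : ∀ k, u (k + 15) = u k := by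
    intro k
    rw [hu, hu, pow_add, hh15, mul_one]
  have hshift : ∀ a k, h₀ ^ k * u a * (h₀ ^ k)⁻¹ = u (a + k) := by
    intro a k
    rw [hu, hu, add_comm, pow_add]
    group
  have hms : ∀ a b c k, u a * u b = u c → u (a + k) * u (b + k) = u (c + k) := by
    intro a b c k h1
    rw [← hshift, ← hshift, ← hshift, ← h1]
    group
  have hsq : ∀ a, u a * u a = 1 := fun a => by
    rw [← pow_two]
    exact sq_eq_one_of_mem h S (huS a)
  have hinj : ∀ a b, a < b → b < 15 → u a ≠ u b := by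
    intro a b hab hb hc
    obtain ⟨d, rfl⟩ : ∃ d, b = a + d := ⟨b - a, by omega⟩
    have h1 : h₀ ^ d * u₀ * (h₀ ^ d)⁻¹ = u₀ := by
      rw [hu, hu, pow_add] at hc
      have h2 : h₀ ^ a * (h₀ ^ d * u₀ * (h₀ ^ d)⁻¹) * (h₀ ^ a)⁻¹ = h₀ ^ a * u₀ * (h₀ ^ a)⁻¹ := by
        rw [hc]
        group
      have h3 := mul_right_cancel (mul_left_cancel (by simpa [mul_assoc] using h2 :
        h₀ ^ a * ((h₀ ^ d * u₀ * (h₀ ^ d)⁻¹) * (h₀ ^ a)⁻¹) = h₀ ^ a * (u₀ * (h₀ ^ a)⁻¹)))
      exact h3
    have h2 : h₀ ^ d ∈ Subgroup.centralizer ({u₀} : Set G) := by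
      rw [Subgroup.mem_centralizer_singleton_iff]
      rw [mul_inv_eq_iff_eq_mul] at h1
      exact h1
    rw [centralizer_eq h S hu₀ hu₀1] at h2
    have h3 : (h₀ ^ d) ^ 15 = 1 := by
      rw [← pow_mul, mul_comm, pow_mul, hh15, one_pow]
    have h4 := eq_one_of_pow_of_mem (V := (S : Subgroup G)) h2 h3 (by rw [card_S h S]; norm_num)
    have h5 := orderOf_dvd_of_pow_eq_one h4
    rw [hord] at h5
    have := Nat.le_of_dvd (by omega) h5
    omega
  have hsurj : ∀ x ∈ S, x ≠ 1 → ∃ k, k < 15 ∧ x = u k := by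
    intro x hx hx1
    let f : Fin 15 → {x : (S : Subgroup G) // x ≠ 1} := fun k =>
      ⟨⟨u k, huS k⟩, fun h1 => hu1 k (congrArg Subtype.val h1)⟩
    have hf : Function.Injective f := by
      intro a b hab
      have h1 : u a = u b := congrArg (fun y : {x : (S : Subgroup G) // x ≠ 1} => ((y.1 : _) : G)) hab
      rcases lt_trichotomy (a : ℕ) (b : ℕ) with h2 | h2 | h2
      · exact absurd h1 (hinj _ _ h2 b.2)
      · exact Fin.ext h2
      · exact absurd h1.symm (hinj _ _ h2 a.2)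
    have hc : Nat.card (Fin 15) = Nat.card {x : (S : Subgroup G) // x ≠ 1} := by
      rw [Cfsg.Agent.Lib.Small.Ord4080.card_ne_one, card_S h S]
      simp
    have hb := (Nat.bijective_iff_injective_and_card f).mpr ⟨hf, hc⟩
    obtain ⟨k, hk⟩ := hb.2 ⟨⟨x, hx⟩, fun h1 => hx1 (congrArg Subtype.val h1)⟩
    refine ⟨k, k.2, ?_⟩
    have h1 := congrArg (fun y : {x : (S : Subgroup G) // x ≠ 1} => ((y.1 : _) : G)) hk
    exact h1.symm
  have hw1 : u 0 * u 1 ≠ 1 := by
    intro h1
    have h2 : u 0 = u 1 := by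
      calc u 0 = u 0 * (u 1 * u 1) := by rw [hsq, mul_one]
        _ = (u 0 * u 1) * u 1 := by group
        _ = u 1 := by rw [h1, one_mul]
    exact hinj 0 1 (by norm_num) (by norm_num) h2
  obtain ⟨k, hk15, hk⟩ := hsurj _ (S.mul_mem (huS 0) (huS 1)) hw1
  have hu0 : u 0 = u₀ := by simp [hu]
  have hu1' : u 1 = h₀ * u₀ * h₀⁻¹ := by simp [hu]
  have hk0 : k ≠ 0 := by
    rintro rfl
    exact hu1 1 (mul_eq_left.mp hk)
  have hk1 : k ≠ 1 := by
    rintro rfl
    exact hu1 0 (mul_eq_right.mp hk)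
  let instC : CommGroup (S : Subgroup G) :=
    { (inferInstance : Group (S : Subgroup G)) with
      mul_comm := fun a b => Subtype.ext (comm_of_mem h S a.2 b.2) }
  let u' : ℕ → (S : Subgroup G) := fun k => ⟨u k, huS k⟩
  have hrel : ∀ j, u j * u (j + 1) = u (j + k) := by
    intro j
    have h1 := hms 0 1 k j hk
    rw [zero_add, add_comm 1 j, add_comm k j] at h1
    exact h1
  have hcase : k = 4 ∨ k = 12 := by
    refine @exclude16 _ instC u' (fun i => Subtype.ext (hsq i)) (fun i => Subtype.ext (hu15 i))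
      (fun a b hab hb hc => hinj a b hab hb (congrArg Subtype.val hc)) k (by omega) hk15
      (fun j => Subtype.ext (hrel j))
  rcases hcase with rfl | rfl
  · left
    rw [← hu, ← hu1', ← hu0, hk]
  · right
    have h14 := hrel 14
    have h15' : u (14 + 1) = u 0 := hu15 0
    have h26 : u (14 + 12) = u 11 := hu15 11
    rw [h15', h26] at h14
    have hinv : h₀⁻¹ = h₀ ^ 14 := by
      rw [inv_eq_iff_mul_eq_one, ← pow_succ']
      exact hh15
    have hinv3 : h₀⁻¹ ^ 4 = h₀ ^ 11 := by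
      rw [inv_pow, inv_eq_iff_mul_eq_one, ← pow_add]
      exact hh15
    rw [hinv3, ← hu]
    have h12 : h₀⁻¹ * u₀ * h₀⁻¹⁻¹ = u 14 := by
      rw [hu, ← hinv, inv_inv]
    rw [h12, ← hu0, ← h14]
    exact comm_of_mem h S (huS 14) (huS 0)


open Fsixteen in
/-- Labelling of a group of order `16` and exponent `2`, with an automorphism having a relation. -/
theorem label16 {A : Type*} [CommGroup A] (φ : A →* A) (e₀ : A) (hsqA : ∀ s : A, s ^ 2 = 1)
    (he₀ : e₀ ≠ 1) (hφne : ∀ s : A, s ≠ 1 → φ s ≠ 1) (hrel : φ (φ (φ (φ e₀))) = e₀ * φ e₀)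
    (hcard : Nat.card A = 16) :
    ∃ τ : Fsixteen → A, (∀ x y, τ (x + y) = τ x * τ y) ∧ (∀ x, φ (τ x) = τ (y * x)) ∧
      Function.Bijective τ := by
  have hfin : Finite A := Nat.finite_of_card_ne_zero (by rw [hcard]; norm_num)
  have he₁ : φ e₀ ≠ 1 := hφne _ he₀
  have he₂ : φ (φ e₀) ≠ 1 := hφne _ he₁
  have he₃ : φ (φ (φ e₀)) ≠ 1 := hφne _ he₂
  have ho₀ : orderOf e₀ = 2 := orderOf_eq_prime (hsqA _) he₀
  have ho₁ : orderOf (φ e₀) = 2 := orderOf_eq_prime (hsqA _) he₁
  have ho₂ : orderOf (φ (φ e₀)) = 2 := orderOf_eq_prime (hsqA _) he₂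
  have ho₃ : orderOf (φ (φ (φ e₀))) = 2 := orderOf_eq_prime (hsqA _) he₃
  let τ : Fsixteen → A := fun x =>
    xp e₀ x.a * xp (φ e₀) x.b * xp (φ (φ e₀)) x.c * xp (φ (φ (φ e₀))) x.d
  have hadd : ∀ x y, τ (x + y) = τ x * τ y := by
    intro x y
    change xp e₀ (x.a + y.a) * xp (φ e₀) (x.b + y.b) * xp (φ (φ e₀)) (x.c + y.c) *
      xp (φ (φ (φ e₀))) (x.d + y.d) = _
    rw [xp_add ho₀, xp_add ho₁, xp_add ho₂, xp_add ho₃]
    simp only [τ, mul_assoc, mul_left_comm]
  have hτ0 : τ 0 = 1 := by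
    have := hadd 0 0
    rw [add_zero] at this
    exact (mul_eq_left.mp this.symm)
  have hτneg : ∀ x, τ (-x) = (τ x)⁻¹ := by
    intro x
    have := hadd (-x) x
    rw [neg_add_cancel, hτ0] at this
    exact eq_inv_of_mul_eq_one_left this.symm
  have hyx : ∀ x : Fsixteen, y * x = ⟨x.d, x.a + x.d, x.b, x.c⟩ := by decide +kernel
  have hτφ : ∀ x, φ (τ x) = τ (y * x) := by
    intro x
    rw [hyx]
    change φ (xp e₀ x.a * xp (φ e₀) x.b * xp (φ (φ e₀)) x.c * xp (φ (φ (φ e₀))) x.d) =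
      xp e₀ x.d * xp (φ e₀) (x.a + x.d) * xp (φ (φ e₀)) x.b * xp (φ (φ (φ e₀))) x.c
    rw [map_mul, map_mul, map_mul, xp_add ho₁]
    have hxp : ∀ (s : A) (i : ZMod 2), φ (xp s i) = xp (φ s) i := by
      intro s i
      simp only [xp, map_pow]
    rw [hxp, hxp, hxp, hxp, hrel]
    have hmp : xp (e₀ * φ e₀) x.d = xp e₀ x.d * xp (φ e₀) x.d := by
      simp only [xp, mul_pow]
    rw [hmp]
    simp only [mul_assoc, mul_comm, mul_left_comm]
  have hτpow : ∀ (k : ℕ) (x : Fsixteen), τ x = 1 → τ (y ^ k * x) = 1 := by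
    intro k
    induction k with
    | zero =>
      intro x hx
      rw [pow_zero, one_mul, hx]
    | succ k ih =>
      intro x hx
      rw [pow_succ', mul_assoc, ← hτφ, ih x hx, map_one]
  have hτ1 : τ 1 ≠ 1 := by
    intro h1
    have h2 : τ 1 = e₀ := by
      change xp e₀ (1 : ZMod 2) * xp (φ e₀) (0 : ZMod 2) * xp (φ (φ e₀)) (0 : ZMod 2) *
        xp (φ (φ (φ e₀))) (0 : ZMod 2) = e₀
      rw [xp_one, xp_zero, xp_zero, xp_zero, mul_one, mul_one, mul_one]
    rw [h2] at h1
    exact he₀ h1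
  have hτker : ∀ x, τ x = 1 → x = 0 := by
    intro x hx
    by_contra hx0
    have hspan : ∀ x : Fsixteen, x ≠ 0 → ∃ k : Fin 15, y ^ (k : ℕ) * x = 1 := by
      decide +kernel
    obtain ⟨k, hk⟩ := hspan x hx0
    apply hτ1
    rw [← hk]
    exact hτpow k x hx
  have hτinj : Function.Injective τ := by
    intro a b hab
    have h1 : τ (a - b) = 1 := by
      rw [sub_eq_add_neg, hadd, hτneg, hab, mul_inv_cancel]
    exact sub_eq_zero.mp (hτker _ h1)
  refine ⟨τ, hadd, hτφ, (Nat.bijective_iff_injective_and_card _).mpr ⟨hτinj, ?_⟩⟩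
  rw [Nat.card_eq_fintype_card, Fsixteen.card_eq, hcard]

open Fsixteen in
/-- **Simple groups of order 4080 are `PSL(2,16)`**. -/
theorem nonempty_mulEquiv_PSL (h : Nat.card G = 4080) :
    Nonempty (G ≃* Matrix.ProjectiveSpecialLinearGroup (Fin 2) Fsixteen) := by
  classical
  have hnc := not_comm h
  have hTI := isTI2 h
  have hfaith := smul_faithful hnc 2 (by rw [h]; norm_num : 2 ∣ Nat.card G)
  obtain ⟨S⟩ : Nonempty (Sylow 2 G) := inferInstance
  have hn : Nat.card (Sylow 2 G) = Nat.card S + 1 := by rw [card_sylow2 h, card_S h S]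
  have hnt : Nontrivial (Sylow 2 G) := by
    apply Finite.one_lt_card_iff_nontrivial.mp
    rw [card_sylow2 h]
    norm_num
  obtain ⟨V, hV⟩ := exists_ne S
  have hT : Nat.card (torus S V) = 15 := by
    have h1 := card_normalizer_eq hTI hn hV
    have h2 := card_normalizer_mul S
    rw [card_sylow2 h, h, h1, card_S h S] at h2
    omega
  obtain ⟨x, hx, hxT⟩ := exists_gen_of_card_mul (G := G) (p := 3) (q := 5) (by norm_num)
    (by norm_num) (torus S V) (by rw [hT])
  have hxG : orderOf x = 15 := by simpa using hx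
  have hxmem : x ∈ torus S V := by
    rw [hxT]
    exact Subgroup.mem_zpowers x
  have htorus : ∀ g ∈ torus S V, ∃ k : ℕ, g = x ^ k := by
    intro g hg
    rw [hxT] at hg
    obtain ⟨k, hk⟩ := (mem_powers_iff_mem_zpowers.mpr hg : g ∈ Submonoid.powers x)
    exact ⟨k, hk.symm⟩
  have hnS : Nontrivial (S : Subgroup G) := by
    apply Finite.one_lt_card_iff_nontrivial.mp
    rw [card_S h S]
    norm_num
  obtain ⟨e', he'⟩ := exists_ne (1 : (S : Subgroup G))
  let e : G := e'
  have heS : e ∈ S := e'.2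
  have he1 : e ≠ 1 := fun h1 => he' (Subtype.ext h1)
  obtain ⟨h₁, hh₁, hh₁7, hh₁t, hrel⟩ : ∃ h₁ : G, h₁ ∈ torus S V ∧ orderOf h₁ = 15 ∧
      (∀ g ∈ torus S V, ∃ k : ℕ, g = h₁ ^ k) ∧
      h₁ ^ 4 * e * (h₁ ^ 4)⁻¹ = e * (h₁ * e * h₁⁻¹) := by
    rcases exists_rel h S hxmem.1 hxG heS he1 with h1 | h1
    · exact ⟨x, hxmem, hxG, htorus, h1⟩
    · refine ⟨x⁻¹, Subgroup.inv_mem _ hxmem, by rwa [orderOf_inv], fun g hg => ?_, h1⟩
      obtain ⟨k, hk⟩ := htorus _ (Subgroup.inv_mem _ hg)
      refine ⟨k, ?_⟩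
      rw [inv_pow, ← hk, inv_inv]
  have hI := (mem_torus.mp hh₁).1
  have hO := (mem_torus.mp hh₁).2
  have hNS : h₁ ∈ Subgroup.normalizer ((S : Subgroup G) : Set G) :=
    Sylow.smul_eq_iff_mem_normalizer.mp hI
  let instC : CommGroup (S : Subgroup G) :=
    { (inferInstance : Group (S : Subgroup G)) with
      mul_comm := fun a b => Subtype.ext (comm_of_mem h S a.2 b.2) }
  let φ : (S : Subgroup G) →* (S : Subgroup G) :=
    { toFun := fun s => ⟨h₁ * s * h₁⁻¹, (Subgroup.mem_normalizer_iff.mp hNS s).mp s.2⟩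
      map_one' := by
        apply Subtype.ext
        simp
      map_mul' := fun a b => by
        apply Subtype.ext
        simp only [Subgroup.coe_mul]
        group }
  have hφ : ∀ s : (S : Subgroup G), ((φ s : (S : Subgroup G)) : G) = h₁ * s * h₁⁻¹ := fun s => rfl
  let e₀ : (S : Subgroup G) := ⟨e, heS⟩
  have hφ2 : φ (φ (φ (φ e₀))) = e₀ * φ e₀ := by
    apply Subtype.ext
    rw [hφ, hφ, hφ, hφ]
    simp only [Subgroup.coe_mul]
    rw [hφ]
    have h1 : h₁ * (h₁ * (h₁ * (h₁ * e * h₁⁻¹) * h₁⁻¹) * h₁⁻¹) * h₁⁻¹ = h₁ ^ 4 * e * (h₁ ^ 4)⁻¹ := by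
      rw [pow_succ, pow_succ, pow_succ, pow_one]
      group
    change h₁ * (h₁ * (h₁ * (h₁ * e * h₁⁻¹) * h₁⁻¹) * h₁⁻¹) * h₁⁻¹ = e * (h₁ * e * h₁⁻¹)
    rw [h1, hrel]
  have hsqS : ∀ s : (S : Subgroup G), s ^ 2 = 1 := fun s =>
    Subtype.ext (sq_eq_one_of_mem h S s.2)
  have hφne : ∀ s : (S : Subgroup G), s ≠ 1 → φ s ≠ 1 := by
    intro s hs h1
    apply hs
    have h2 := congrArg Subtype.val h1
    rw [hφ] at h2
    apply Subtype.ext
    have h3 : (s : G) = h₁⁻¹ * (h₁ * s * h₁⁻¹) * h₁ := by group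
    rw [h3, h2]
    simp
  have he₀1 : e₀ ≠ 1 := fun h1 => he1 (congrArg Subtype.val h1)
  obtain ⟨τS, hadd, hτφ, hτbij⟩ := @label16 _ instC φ e₀ hsqS he₀1 hφne hφ2 (card_S h S)
  have hτ1 : τS 0 = 1 := by
    have := hadd 0 0
    rw [add_zero] at this
    exact (mul_eq_left.mp this.symm)
  have hcheck : checkOne addN mulN negN (code y) (code 1) (code y) 15 [1, 2, 3, 4, 5, 6, 7, 8, 9, 10, 11, 12, 13, 14, 15]
      [1, 2, 3, 4, 5, 6, 7, 8, 9, 10, 11, 12, 13, 14, 15] [1, 2, 3, 4, 5, 6, 7, 8, 9, 10, 11, 12, 13, 14, 15] = true := by decide +kernel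
  have hnz : ∀ i : Fsixteen, i ≠ 0 → code i ∈ ([1, 2, 3, 4, 5, 6, 7, 8, 9, 10, 11, 12, 13, 14, 15] : List ℕ) := by decide +kernel
  have hnz0 : ∀ n ∈ ([1, 2, 3, 4, 5, 6, 7, 8, 9, 10, 11, 12, 13, 14, 15] : List ℕ), ∃ i : Fsixteen, i ≠ 0 ∧ code i = n := by
    decide +kernel
  have hsq : ∀ s : Fsixteen, s ≠ 0 → code (s ^ 2) ∈ ([1, 2, 3, 4, 5, 6, 7, 8, 9, 10, 11, 12, 13, 14, 15] : List ℕ) := by
    decide +kernel
  have hkeys : ∀ n ∈ ([1, 2, 3, 4, 5, 6, 7, 8, 9, 10, 11, 12, 13, 14, 15] : List ℕ), n ∈ keysN mulN (code y) 15 (code 1) := by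
    decide +kernel
  have hpow : ∀ a : Fsixteen, code a ∈ ([1, 2, 3, 4, 5, 6, 7, 8, 9, 10, 11, 12, 13, 14, 15] : List ℕ) → ∃ k : ℕ, a = y ^ k := by
    have hall : ∀ a : Fsixteen, code a ∈ ([1, 2, 3, 4, 5, 6, 7, 8, 9, 10, 11, 12, 13, 14, 15] : List ℕ) →
        a ∈ (List.range 15).map (fun k => y ^ k) := by decide +kernel
    intro a ha
    obtain ⟨k, -, hk⟩ := List.mem_map.mp (hall a ha)
    exact ⟨k, hk.symm⟩
  refine Cfsg.Agent.Lib.Small.PSL2Check1.recognition_labeled_abstract (a₀ := y) (by decide +kernel)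
    ?_ hfaith S V hV (fun x => (τS x : G)) ?_ (fun x => smul_self_of_mem S (τS x).2) ?_ ?_ h₁ hI hO
    ?_ ?_ ?_ (MulAction.exists_smul_eq G S V)
  · intro F hF0 hFinj s₁ hs₁ hF1 hF2
    obtain ⟨c, hc, hFc⟩ := check_sound1 isCode hcheck hnz hnz0 hsq hkeys (by decide +kernel)
      (by decide +kernel) (by decide +kernel) (by decide +kernel) F hF0 hFinj (s₁ ^ 2)
      (hsq _ hs₁) hF1 hF2
    obtain ⟨k, hk⟩ := hpow _ hc
    exact ⟨c, k, hk, hFc⟩
  · intro a b
    rw [hadd]
    rfl
  · intro a ha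
    have h1 := eq_one_of_smul_eq hTI hV (τS a).2 ha
    exact hτbij.1 ((Subtype.ext h1 : τS a = 1).trans hτ1.symm)
  · intro w hw
    obtain ⟨u, hu, rfl⟩ := exists_smul_eq hTI hn hV hw
    obtain ⟨a, ha⟩ := hτbij.2 ⟨u, hu⟩
    refine ⟨a, ?_⟩
    have h1 : (τS a : G) = u := congrArg Subtype.val ha
    rw [h1]
  · intro a
    rw [← hφ, hτφ]
  · intro g hg1 hg2
    exact hh₁t g (mem_torus.mpr ⟨hg1, hg2⟩)
  · intro k
    refine ⟨y ^ (8 * k), pow_ne_zero _ (by decide +kernel), ?_⟩
    have h16 : y ^ 16 = y := by decide +kernel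
    rw [← pow_mul, show 8 * k * 2 = 16 * k by ring, pow_mul, h16]

/-- **Simple groups of order 4080 are `PSL(2,16)`**, `F` any field with 16 elements. -/
theorem nonempty_mulEquiv {F : Type v} [Field F] [Fintype F] (h : Nat.card G = 4080)
    (hF : Fintype.card F = 16) :
    Nonempty (G ≃* Matrix.ProjectiveSpecialLinearGroup (Fin 2) F) := by
  obtain ⟨e₁⟩ := nonempty_mulEquiv_PSL h
  obtain ⟨e₂⟩ := Cfsg.Agent.Lib.Small.PSL2Rec.nonempty_pslCongr_of_card (K := Fsixteen) (L := F)
    (by rw [Fsixteen.card_eq, hF])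
  exact ⟨e₁.trans e₂⟩

end Cfsg.Agent.Lib.Small.Ord4080
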