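/-
Simple groups of order 6072: recognition of PSL(2,23).
-/
import Cfsg.Agent.Lib.Small.PSL2Rec

set_option autoImplicit false

namespace Cfsg.Agent.Lib.Small.PSL2P23

open Cfsg.Agent.Lib.Small.Basic Cfsg.Agent.Lib.Small.Sieve Cfsg.Agent.Lib.Small.PSL2Check
  Cfsg.Agent.Lib.Small.PSL2Rec

universe u v

instance fact_prime : Fact (Nat.Prime 23) := ⟨by norm_num⟩

/-- A simple group of order 6072 is `PSL(2, ZMod 23)`. -/
theorem nonempty_mulEquiv_zmod {G : Type u} [Group G] [Finite G] [IsSimpleGroup G]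
    (h : Nat.card G = 6072) : Nonempty (G ≃* Matrix.ProjectiveSpecialLinearGroup (Fin 2) (ZMod 23)) := by
  have hnc : ¬ IsMulCommutative G := not_comm_of_not_prime (by rw [h]; norm_num)
  have hf : 6072 = 23 ^ 1 * 264 := by norm_num
  have hm := card_sylow_mem_candidates (G := G) (p := 23) (k := 1) (m := 264) hnc h hf
    (by norm_num) (by norm_num)
  have hc : candidates 6072 23 1 264 = [24] := by decide +kernel
  rw [hc, List.mem_singleton] at hm
  have hrp : ∀ P : Sylow 23 G, Nat.card P = 23 := fun P => by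
    simpa using card_sylow_eq (h.trans hf) (by norm_num) P
  exact nonempty_mulEquiv_PSL_zmod hnc 23 11 (by rw [h]) hrp hm
    (a₀ := 2) (r₁ := 1) (r₂ := 5) (e := 2) (L := 11) (nz := [1, 2, 3, 4, 5, 6, 7, 8, 9, 10, 11, 12, 13, 14, 15, 16, 17, 18, 19, 20, 21, 22])
    (sq := [1, 2, 3, 4, 6, 8, 9, 12, 13, 16, 18]) (A1s := [1, 2, 3, 4, 6, 8, 9, 12, 13, 16, 18])
    (by decide +kernel) (by decide +kernel) (by decide +kernel) (by decide +kernel)
    (by decide +kernel) (by decide +kernel) (by decide +kernel) (by decide +kernel)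
    (by decide +kernel) (by decide +kernel)
    (fun a ha => by
      revert a
      have hall : ∀ a : ZMod 23, a.val ∈ ([1, 2, 3, 4, 6, 8, 9, 12, 13, 16, 18] : List ℕ) →
          a ∈ (List.range 11).map (fun k => (2 : ZMod 23) ^ k) := by decide +kernel
      intro a ha
      obtain ⟨k, -, hk⟩ := List.mem_map.mp (hall a ha)
      exact ⟨k, hk.symm⟩)
    (by decide +kernel) (by decide +kernel)
    (fun _ _ _ _ _ _ _ _ _ _ _ h => h)

/-- A simple group of order 6072 is `PSL(2, F)`, `F` any field with 23 elements. -/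
theorem nonempty_mulEquiv {G : Type u} [Group G] [Finite G] [IsSimpleGroup G]
    (h : Nat.card G = 6072) {F : Type v} [Field F] [Fintype F] (hF : Fintype.card F = 23) :
    Nonempty (G ≃* Matrix.ProjectiveSpecialLinearGroup (Fin 2) F) := by
  obtain ⟨e₁⟩ := nonempty_mulEquiv_zmod h
  obtain ⟨e₂⟩ := nonempty_pslCongr_of_card (K := ZMod 23) (L := F) (by rw [ZMod.card, hF])
  exact ⟨e₁.trans e₂⟩

end Cfsg.Agent.Lib.Small.PSL2P23
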