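/-
Small simple groups: a faster form of the sieve, looking only at the divisors of the order.
-/
import Cfsg.Agent.Lib.Small.Sieve

set_option autoImplicit false

namespace Cfsg.Agent.Lib.Small.SieveFast

open Cfsg.Agent.Lib.Small.Basic Cfsg.Agent.Lib.Small.Sieve

universe u

variable {G : Type u} [Group G] [Finite G] [IsSimpleGroup G]

/-- Primality below `6400` by trial division up to `80`. -/
def isPrimeF (p : ℕ) : Bool :=
  decide (2 ≤ p) && decide (p < 6400) &&
    (List.range 80).all (fun d => decide (d < 2) || decide (p < d * d) || (p % d != 0))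

theorem isPrimeF_sound {p : ℕ} (h : isPrimeF p = true) : p.Prime := by
  simp only [isPrimeF, Bool.and_eq_true, decide_eq_true_eq, List.all_eq_true, List.mem_range,
    Bool.or_eq_true, bne_iff_ne, ne_eq] at h
  obtain ⟨⟨h2, h3⟩, h⟩ := h
  refine Nat.prime_def_le_sqrt.mpr ⟨h2, fun m hm hs hd => ?_⟩
  have hm2 : m * m ≤ p := (Nat.le_sqrt).mp hs
  have hm80 : m < 80 := by
    by_contra hge
    have : 80 * 80 ≤ m * m := Nat.mul_le_mul (by omega) (by omega)
    omega
  rcases h m hm80 with (h' | h') | h'
  · omega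
  · omega
  · exact h' (Nat.mod_eq_zero_of_dvd hd)

/-- The prime `p` eliminates the order `N`. -/
def sieveAtF (N p : ℕ) : Bool :=
  isPrimeF p && (N % p == 0) &&
    (let r := factorOut p N N
     (N == p ^ r.1 * r.2) && (r.2 % p != 0) && decide (0 < r.1) && allExcluded N p r.1 r.2)

/-- Some prime divisor of `N` eliminates the order `N`, the large primes being looked at first. -/
def sieveFast (N : ℕ) : Bool :=
  (List.range 80).any (fun d => (d != 0) && (N % d == 0) && sieveAtF N (N / d)) ||
    (List.range 80).reverse.any (fun d => (d != 0) && (N % d == 0) && sieveAtF N d)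

theorem false_of_sieveAtF (hG : ¬ IsMulCommutative G) {N p : ℕ} (hN : Nat.card G = N)
    (hp : sieveAtF N p = true) : False := by
  simp only [sieveAtF, Bool.and_eq_true, beq_iff_eq, bne_iff_ne, ne_eq, decide_eq_true_eq] at hp
  obtain ⟨⟨hp1, -⟩, ⟨⟨h1, h2⟩, h3⟩, h4⟩ := hp
  have : Fact p.Prime := ⟨isPrimeF_sound hp1⟩
  exact false_of_allExcluded hG hN h1 (fun hd => h2 (Nat.mod_eq_zero_of_dvd hd)) h3 h4

theorem false_of_sieveFast (hG : ¬ IsMulCommutative G) {N : ℕ} (hN : Nat.card G = N)
    (h : sieveFast N = true) : False := by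
  simp only [sieveFast, List.any_eq_true, Bool.and_eq_true, Bool.or_eq_true] at h
  rcases h with ⟨d, -, -, h1⟩ | ⟨d, -, -, h1⟩
  · exact false_of_sieveAtF hG hN h1
  · exact false_of_sieveAtF hG hN h1

end Cfsg.Agent.Lib.Small.SieveFast
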